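import Mathlib
import Cfsg.Prelude.Def_PLocal
import Cfsg.Agent.Lib.LocalChar.Actions
import Cfsg.Agent.Lib.Coprime.Action

/-!
An abelian subgroup of largest order acts with cubic length on every abelian normal subgroup of the
ambient `p`-group that it meets maximally.
-/

set_option autoImplicit false

open scoped commutatorElement

namespace Cfsg.Agent.Lib.KInf

variable {X : Type*} [Group X]

/-- An abelian subgroup of `S` of largest order. -/
structure MaxAb (S A : Subgroup X) : Prop where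
  le : A ≤ S
  comm : ∀ a ∈ A, ∀ b ∈ A, a * b = b * a
  max : ∀ B : Subgroup X, B ≤ S → (∀ a ∈ B, ∀ b ∈ B, a * b = b * a) → Nat.card ↥B ≤ Nat.card ↥A

/-- The subgroup generated by the commutators of `x` with the elements of `A`. -/
def commWith (x : X) (A : Subgroup X) : Subgroup X := Subgroup.closure {m | ∃ a ∈ A, m = ⁅x, a⁆}

section

variable {E A : Subgroup X} (hE : ∀ x ∈ E, ∀ y ∈ E, x * y = y * x) (hAE : A ≤ Subgroup.normalizer (E : Set X))
  (hA : ∀ a ∈ A, ∀ b ∈ A, a * b = b * a)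

include hAE in
lemma conj_mem' {e a : X} (he : e ∈ E) (ha : a ∈ A) : a * e * a⁻¹ ∈ E :=
  (Subgroup.mem_normalizer_iff.1 (hAE ha) e).1 he

include hAE in
lemma comm_mem {e a : X} (he : e ∈ E) (ha : a ∈ A) : ⁅e, a⁆ ∈ E := by
  rw [commutatorElement_def, mul_assoc, mul_assoc, ← mul_assoc a]
  exact E.mul_mem he (conj_mem' hAE (E.inv_mem he) ha)

include hE hAE in
lemma comm_mul {e f a : X} (he : e ∈ E) (hf : f ∈ E) (ha : a ∈ A) : ⁅e * f, a⁆ = ⁅e, a⁆ * ⁅f, a⁆ := by
  have h1 : ⁅e * f, a⁆ = e * ⁅f, a⁆ * e⁻¹ * ⁅e, a⁆ := by simp only [commutatorElement_def]; group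
  rw [h1, hE e he _ (comm_mem hAE hf ha), mul_inv_cancel_right, hE _ (comm_mem hAE hf ha) _ (comm_mem hAE he ha)]

include hE hAE in
lemma comm_inv {e a : X} (he : e ∈ E) (ha : a ∈ A) : ⁅e⁻¹, a⁆ = ⁅e, a⁆⁻¹ := by
  refine eq_inv_of_mul_eq_one_left ?_
  rw [← comm_mul hE hAE (E.inv_mem he) he ha, inv_mul_cancel, commutatorElement_one_left]

include hE hAE hA in
lemma comm_swap {e a b : X} (he : e ∈ E) (ha : a ∈ A) (hb : b ∈ A) : ⁅⁅e, a⁆, b⁆ = ⁅⁅e, b⁆, a⁆ := by
  have hu : a * e⁻¹ * a⁻¹ ∈ E := conj_mem' hAE (E.inv_mem he) ha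
  have hv : b * e⁻¹ * b⁻¹ ∈ E := conj_mem' hAE (E.inv_mem he) hb
  have hw : (b * a) * e * (b * a)⁻¹ ∈ E := conj_mem' hAE he (A.mul_mem hb ha)
  have e1 : ⁅⁅e, a⁆, b⁆ = e * (a * e⁻¹ * a⁻¹) * ((b * a) * e * (b * a)⁻¹) * (b * e⁻¹ * b⁻¹) := by
    simp only [commutatorElement_def]; group
  have e2 : ⁅⁅e, b⁆, a⁆ = e * (b * e⁻¹ * b⁻¹) * ((a * b) * e * (a * b)⁻¹) * (a * e⁻¹ * a⁻¹) := by
    simp only [commutatorElement_def]; group
  rw [e1, e2, hA a ha b hb, mul_assoc e, mul_assoc e, mul_assoc e, mul_assoc e]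
  congr 1
  rw [mul_assoc]
  rw [hE _ hu _ (E.mul_mem hw hv), hE _ hw _ hv]

include hAE in
lemma commWith_le {x : X} (hx : x ∈ E) : commWith x A ≤ E :=
  (Subgroup.closure_le _).2 (by rintro _ ⟨a, ha, rfl⟩; exact comm_mem hAE hx ha)

include hE hAE in
/-- To bound `[T, a]` it is enough to treat generators. -/
lemma comm_closure_le {s : Set X} (hs : ∀ y ∈ s, y ∈ E) {a : X} (ha : a ∈ A) {T : Subgroup X}
    (h : ∀ y ∈ s, ⁅y, a⁆ ∈ T) {y : X} (hy : y ∈ Subgroup.closure s) : ⁅y, a⁆ ∈ T := by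
  have hle : Subgroup.closure s ≤ E := (Subgroup.closure_le _).2 hs
  induction hy using Subgroup.closure_induction with
  | mem y hy => exact h y hy
  | one => rw [commutatorElement_one_left]; exact T.one_mem
  | mul u v hu hv ihu ihv => rw [comm_mul hE hAE (hle hu) (hle hv) ha]; exact T.mul_mem ihu ihv
  | inv u hu ih => rw [comm_inv hE hAE (hle hu) ha]; exact T.inv_mem ih

end

/-- An abelian subgroup of largest order outside `P` meeting `E` maximally acts cubically on `E`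
modulo any subgroup containing `[E, P]`. -/
theorem cubic_on_abelian [Finite X] {p : ℕ} [Fact p.Prime] {S A E P Y : Subgroup X} (hS : IsPGroup p ↥S)
    (hES : E ≤ S) (hE : ∀ x ∈ E, ∀ y ∈ E, x * y = y * x) (hSE : S ≤ Subgroup.normalizer (E : Set X))
    (hSY : S ≤ Subgroup.normalizer (Y : Set X)) (hEP : ⁅E, P⁆ ≤ Y) (hA : MaxAb S A)
    (hmax : ∀ B : Subgroup X, MaxAb S B → ¬ B ≤ P →
      Nat.card ↥(B ⊓ E : Subgroup X) ≤ Nat.card ↥(A ⊓ E : Subgroup X))
    {x : X} (hx : x ∈ E) {a : X} (ha : a ∈ A) : ⁅⁅⁅x, a⁆, a⁆, a⁆ ∈ Y := by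
  classical
  have hAE : A ≤ Subgroup.normalizer (E : Set X) := hA.le.trans hSE
  -- replacement
  have repl : ∀ y ∈ E,
      ((¬ commWith y A ≤ A) → A ⊓ Subgroup.centralizer (commWith y A : Set X) ≤ P) ∧
      ∀ m ∈ commWith y A, ∃ b ∈ A, ⁅y, b⁆⁻¹ * m ∈ A := by
    intro y hy
    set M := commWith y A with hM
    have hME : M ≤ E := commWith_le hAE hy
    set C := A ⊓ Subgroup.centralizer (M : Set X) with hC
    set D := A ⊓ M with hD
    have hCM : C ⊓ M = D := le_antisymm (inf_le_inf_right _ inf_le_left)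
      (le_inf (le_inf inf_le_left fun d hd => fun m hm => hE m (hME hm) d (hME hd.2)) inf_le_right)
    have hCn : C ≤ Subgroup.normalizer (M : Set X) := inf_le_right.trans (Subgroup.centralizer_le_normalizer _)
    have hcard := Cfsg.Agent.Lib.Coprime.card_sup_mul_card_inf_of_le_normalizer hCn
    rw [hCM] at hcard
    have hstab : C ⊔ M ≤ Subgroup.centralizer ((C ⊔ M : Subgroup X) : Set X) := by
      refine sup_le (Subgroup.le_centralizer_iff.1 (sup_le ?_ ?_)) (Subgroup.le_centralizer_iff.1 (sup_le ?_ ?_))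
      · exact fun c hc d hd => hA.comm d hd.1 c hc.1
      · exact Subgroup.le_centralizer_iff.1 (inf_le_right : C ≤ _)
      · exact (inf_le_right : C ≤ _)
      · exact fun m hm n hn => hE n (hME hn) m (hME hm)
    have hab : ∀ u ∈ C ⊔ M, ∀ v ∈ C ⊔ M, u * v = v * u := fun u hu v hv => hstab hv u hu
    have hle : C ⊔ M ≤ S := sup_le (inf_le_left.trans hA.le) (hME.trans hES)
    let f : ↥A ⧸ C.subgroupOf A → ↥M ⧸ D.subgroupOf M := fun q =>
      QuotientGroup.mk ⟨⁅y, ((Quotient.out q : ↥A) : X)⁆, Subgroup.subset_closure ⟨_, (Quotient.out q).2, rfl⟩⟩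
    have hf : Function.Injective f := by
      intro q r hqr
      rw [← QuotientGroup.out_eq' q, ← QuotientGroup.out_eq' r]
      refine QuotientGroup.eq.2 ?_
      have hz := Subgroup.mem_subgroupOf.1 (QuotientGroup.eq.1 hqr)
      simp only [Subgroup.coe_mul, Subgroup.coe_inv] at hz
      set u : X := ((Quotient.out q : ↥A) : X)
      set v : X := ((Quotient.out r : ↥A) : X)
      have hu : u ∈ A := (Quotient.out q).2
      have hv : v ∈ A := (Quotient.out r).2
      rw [Subgroup.mem_subgroupOf]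
      show u⁻¹ * v ∈ C
      set e := u⁻¹ * v with he
      have heA : e ∈ A := A.mul_mem (A.inv_mem hu) hv
      have h1 : ⁅y, u⁆⁻¹ * ⁅y, v⁆ = u * ⁅y, e⁆ * u⁻¹ := by
        simp only [he, commutatorElement_def]; group
      have h2 : ⁅y, e⁆ ∈ A := by
        have := A.mul_mem (A.mul_mem (A.inv_mem hu) (h1 ▸ hz.1 : u * ⁅y, e⁆ * u⁻¹ ∈ A)) hu
        simpa [mul_assoc] using this
      refine ⟨heA, ?_⟩
      rw [hM, commWith, Subgroup.centralizer_closure]
      rintro _ ⟨d, hd, rfl⟩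
      apply commutatorElement_eq_one_iff_mul_comm.1
      rw [comm_swap hE hAE hA.comm hy hd heA, commutatorElement_eq_one_iff_mul_comm]
      exact hA.comm _ h2 d hd
    have hidx : C.relIndex A ≤ D.relIndex M := Nat.card_le_card_of_injective f hf
    have hCA : Nat.card ↥C * C.relIndex A = Nat.card ↥A := by
      rw [← Subgroup.card_mul_index (C.subgroupOf A),
        Nat.card_congr (Subgroup.subgroupOfEquivOfLe (inf_le_left : C ≤ A)).toEquiv]; rfl
    have hDM : Nat.card ↥D * D.relIndex M = Nat.card ↥M := by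
      rw [← Subgroup.card_mul_index (D.subgroupOf M),
        Nat.card_congr (Subgroup.subgroupOfEquivOfLe (inf_le_right : D ≤ M)).toEquiv]; rfl
    rw [← hDM, show Nat.card ↥C * (Nat.card ↥D * D.relIndex M) = Nat.card ↥C * D.relIndex M * Nat.card ↥D by ring] at hcard
    have hC' := Nat.eq_of_mul_eq_mul_right Nat.card_pos hcard
    have hle' := hA.max _ hle hab
    have heq : C.relIndex A = D.relIndex M := by
      refine le_antisymm hidx (Nat.le_of_mul_le_mul_left (?_ : Nat.card ↥C * D.relIndex M ≤ Nat.card ↥C * C.relIndex A) Nat.card_pos)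
      rw [hCA, ← hC']; exact hle'
    refine ⟨fun hMA => ?_, fun m hm => ?_⟩
    · have hmax' : MaxAb S (C ⊔ M) := ⟨hle, hab, fun B hB hBc => by
        rw [hC', ← heq, hCA]; exact hA.max B hB hBc⟩
      by_contra hCP
      have h1 := hmax _ hmax' fun h => hCP (le_sup_left.trans h)
      have h2 : A ⊓ E < (C ⊔ M) ⊓ E := by
        refine lt_of_le_of_ne (le_inf (fun d hd => Subgroup.mem_sup_left ⟨hd.1, fun n hn =>
          hE n (hME hn) d hd.2⟩) inf_le_right) fun e => hMA fun m hm => ?_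
        exact (e ▸ (show m ∈ (C ⊔ M) ⊓ E from ⟨Subgroup.mem_sup_right hm, hME hm⟩) : m ∈ A ⊓ E).1
      exact h1.not_gt ((Set.toFinite _).card_lt_card (SetLike.coe_ssubset_coe.2 h2))
    · have hsurj : Function.Surjective f :=
        (hf.bijective_of_nat_card_le heq.ge).2
      obtain ⟨q, hq⟩ := hsurj (QuotientGroup.mk ⟨m, hm⟩)
      refine ⟨_, (Quotient.out q).2, ?_⟩
      have h1 := Subgroup.mem_subgroupOf.1 (QuotientGroup.eq.1 hq)
      simpa using h1.1
  set M := commWith x A with hM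
  have hME : M ≤ E := commWith_le hAE hx
  set N := fun k => Cfsg.iterCommutator M A k with hN
  have hN0 : N 0 = M := rfl
  have hNs : ∀ k, N (k + 1) = ⁅N k, A⁆ := fun k => rfl
  have hNE : ∀ k, N k ≤ E := by
    intro k
    induction k with
    | zero => exact hME
    | succ k ih =>
      rw [hNs, Subgroup.commutator_le]
      exact fun n hn b hb => comm_mem hAE (ih hn) hb
  obtain ⟨b, hb, hd⟩ := (repl x hx).2 _ (show ⁅x, a⁆ ∈ M from Subgroup.subset_closure ⟨a, ha, rfl⟩)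
  -- the second commutator modulo `A`
  by_cases h1 : N 1 ≤ A
  · have h2 : ⁅⁅x, a⁆, a⁆ ∈ A := h1 (Subgroup.commutator_mem_commutator
      (Subgroup.subset_closure ⟨a, ha, rfl⟩) ha)
    rw [commutatorElement_eq_one_iff_mul_comm.2 (hA.comm _ h2 a ha)]
    exact Y.one_mem
  set m := ⁅⁅x, a⁆, a⁆ with hm
  have hmN : m ∈ N 1 := Subgroup.commutator_mem_commutator (Subgroup.subset_closure ⟨a, ha, rfl⟩) ha
  have hmM : m ∈ M := by
    have key : ∀ u ∈ M, ∀ c ∈ A, ⁅u, c⁆ ∈ M := by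
      intro u hu c hc
      refine comm_closure_le hE hAE (s := {m | ∃ a ∈ A, m = ⁅x, a⁆}) (T := M)
        (fun y hy => by obtain ⟨d, hd, rfl⟩ := hy; exact comm_mem hAE hx hd) hc ?_ hu
      rintro _ ⟨d, hd, rfl⟩
      have e : ⁅⁅x, d⁆, c⁆ = ⁅x, d⁆ * ⁅x, c * d⁆⁻¹ * ⁅x, c⁆ := by
        simp only [commutatorElement_def]; group
      rw [e]
      exact M.mul_mem (M.mul_mem (Subgroup.subset_closure ⟨d, hd, rfl⟩)
        (M.inv_mem (Subgroup.subset_closure ⟨_, A.mul_mem hc hd, rfl⟩))) (Subgroup.subset_closure ⟨c, hc, rfl⟩)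
    exact key _ (Subgroup.subset_closure ⟨a, ha, rfl⟩) a ha
  clear hd hb b
  obtain ⟨b, hb, hd⟩ := (repl x hx).2 m hmM
  obtain ⟨n₀, hn₀⟩ := Cfsg.Agent.Lib.LocalChar.exists_iter_eq_bot hS (hME.trans hES) hA.le
  have hex : ∃ k, N k ≤ A := ⟨n₀, by show Cfsg.iterCommutator M A n₀ ≤ A; rw [hn₀]; exact bot_le⟩
  have hfind : 2 ≤ Nat.find hex := by
    by_contra hlt
    have hs := Nat.find_spec hex
    rcases Nat.lt_succ_iff.1 (not_le.1 hlt) |>.eq_or_lt with e | e
    · rw [e] at hs; exact h1 hs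
    · rw [Nat.lt_one_iff.1 e] at hs
      exact h1 ((Subgroup.commutator_le.2 fun u hu v hv => by
        rw [commutatorElement_eq_one_iff_mul_comm.2 (hA.comm u (hs hu) v hv)]; exact one_mem _ : N 1 ≤ (⊥ : Subgroup X)).trans bot_le)
  obtain ⟨j, hj⟩ : ∃ j, Nat.find hex = j + 2 := ⟨Nat.find hex - 2, by omega⟩
  have hjA : ¬ N (j + 1) ≤ A := fun h => Nat.find_min hex (by omega) h
  have hjA' : N (j + 2) ≤ A := hj ▸ Nat.find_spec hex
  have hj3 : N (j + 3) = ⊥ := by
    rw [hNs, Subgroup.commutator_eq_bot_iff_le_centralizer]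
    exact fun u hu v hv => hA.comm v hv u (hjA' hu)
  -- the element `b` shifts the series by two steps
  have hshift : ∀ k, ∀ u ∈ N k, ⁅u, b⁆ ∈ N (k + 2) := by
    intro k
    induction k with
    | zero =>
      intro u hu
      refine comm_closure_le hE hAE (s := {m | ∃ a ∈ A, m = ⁅x, a⁆})
        (fun y hy => by obtain ⟨d, hd, rfl⟩ := hy; exact comm_mem hAE hx hd) hb ?_ hu
      rintro _ ⟨c, hc, rfl⟩
      rw [comm_swap hE hAE hA.comm hx hc hb]
      have hxb : ⁅x, b⁆ = m * (⁅x, b⁆⁻¹ * m)⁻¹ := by group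
      have hdE : (⁅x, b⁆⁻¹ * m)⁻¹ ∈ E := E.inv_mem (E.mul_mem (E.inv_mem (comm_mem hAE hx hb)) (hME hmM))
      rw [hxb, comm_mul hE hAE (hME hmM) hdE hc,
        commutatorElement_eq_one_iff_mul_comm.2 (hA.comm _ (A.inv_mem hd) c hc), mul_one]
      exact Subgroup.commutator_mem_commutator hmN hc
    | succ k ih =>
      intro u hu
      rw [hNs, Subgroup.commutator_def] at hu
      refine comm_closure_le hE hAE ?_ hb ?_ hu
      · rintro _ ⟨w, hw, c, hc, rfl⟩; exact comm_mem hAE (hNE k hw) hc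
      · rintro _ ⟨w, hw, c, hc, rfl⟩
        rw [comm_swap hE hAE hA.comm (hNE k hw) hc hb]
        exact Subgroup.commutator_mem_commutator (ih w hw) hc
  obtain ⟨y, hy, c, hc, hyc⟩ : ∃ y ∈ N j, ∃ c ∈ A, ⁅y, c⁆ ∉ A := by
    by_contra hcon
    push Not at hcon
    exact hjA (Subgroup.commutator_le.2 hcon)
  have hbP : b ∈ P := by
    refine (repl y (hNE j hy)).1 (fun h => hyc (h (Subgroup.subset_closure ⟨c, hc, rfl⟩))) ⟨hb, ?_⟩
    rw [commWith, Subgroup.centralizer_closure]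
    rintro _ ⟨d, hd', rfl⟩
    apply commutatorElement_eq_one_iff_mul_comm.1
    have := hshift (j + 1) _ (Subgroup.commutator_mem_commutator hy hd' : ⁅y, d⁆ ∈ N (j + 1))
    rwa [show j + 1 + 2 = j + 3 from rfl, hj3, Subgroup.mem_bot] at this
  have hxbY : ⁅x, b⁆ ∈ Y := hEP (Subgroup.commutator_mem_commutator hx hbP)
  set d := ⁅x, b⁆⁻¹ * m with hdd
  have hdE : d ∈ E := E.mul_mem (E.inv_mem (comm_mem hAE hx hb)) (hME hmM)
  rw [show m = ⁅x, b⁆ * d by rw [hdd]; group, comm_mul hE hAE (comm_mem hAE hx hb) hdE ha,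
    commutatorElement_eq_one_iff_mul_comm.2 (hA.comm d hd a ha), mul_one, commutatorElement_def, mul_assoc, mul_assoc,
    ← mul_assoc a]
  exact Y.mul_mem hxbY ((Subgroup.mem_normalizer_iff.1 (hSY (hA.le ha)) _).1 (Y.inv_mem hxbY))

end Cfsg.Agent.Lib.KInf
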