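import Mathlib

/-! A finite group of odd order and class two carries an abelian group structure invariant under automorphisms. -/

set_option autoImplicit false

open scoped commutatorElement

namespace Cfsg.Agent.Lib.KInf

/-- Finite of odd order and nilpotent of class at most two. -/
class OddTwo (G : Type*) [Group G] : Prop where
  finite : Finite G
  odd : Odd (Nat.card G)
  central : ∀ x y z : G, ⁅x, y⁆ * z = z * ⁅x, y⁆

/-- The underlying type of the abelian group. -/
@[ext]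
structure Lin (G : Type*) where
  /-- The element of the group. -/
  toG : G

namespace Lin

variable {G : Type*} [Group G]

/-- The square root. -/
noncomputable def hf (c : G) : G := c ^ ((Nat.card G + 1) / 2)

lemma hf_one : hf (1 : G) = 1 := one_pow _

variable [h : OddTwo G]

lemma hf_mul_self (c : G) : hf c * hf c = c := by
  obtain ⟨k, hk⟩ := h.odd
  rw [hf, ← pow_add, show (Nat.card G + 1) / 2 + (Nat.card G + 1) / 2 = Nat.card G + 1 by omega, pow_succ,
    pow_card_eq_one', one_mul]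

lemma hf_inv (c : G) : hf c⁻¹ = (hf c)⁻¹ := inv_pow _ _

lemma hf_comm (x y z : G) : hf ⁅x, y⁆ * z = z * hf ⁅x, y⁆ :=
  ((show Commute ⁅x, y⁆ z from h.central x y z).pow_left _).eq

lemma comm_mul_left (x y z : G) : ⁅x * y, z⁆ = ⁅x, z⁆ * ⁅y, z⁆ := by
  have e : ⁅x * y, z⁆ = (x * ⁅y, z⁆ * x⁻¹) * ⁅x, z⁆ := by simp only [commutatorElement_def]; group
  rw [e, ← h.central y z x, mul_inv_cancel_right, h.central]

lemma comm_mul_right (x y z : G) : ⁅x, y * z⁆ = ⁅x, y⁆ * ⁅x, z⁆ := by
  have e : ⁅x, y * z⁆ = ⁅x, y⁆ * (y * ⁅x, z⁆ * y⁻¹) := by simp only [commutatorElement_def]; group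
  rw [e, ← h.central x z y, mul_inv_cancel_right]

lemma comm_hf_left (x y z : G) : ⁅hf ⁅x, y⁆, z⁆ = 1 :=
  commutatorElement_eq_one_iff_mul_comm.2 (hf_comm x y z)

lemma comm_hf_right (x y z : G) : ⁅z, hf ⁅x, y⁆⁆ = 1 :=
  commutatorElement_eq_one_iff_mul_comm.2 (hf_comm x y z).symm

lemma hf_mul_comm (x y x' y' : G) : hf (⁅x, y⁆ * ⁅x', y'⁆) = hf ⁅x, y⁆ * hf ⁅x', y'⁆ :=
  (show Commute ⁅x, y⁆ ⁅x', y'⁆ from h.central x y _).mul_pow _

noncomputable instance : Add (Lin G) := ⟨fun x y => ⟨x.toG * y.toG * hf ⁅y.toG, x.toG⁆⟩⟩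

instance : Zero (Lin G) := ⟨⟨1⟩⟩

instance : Neg (Lin G) := ⟨fun x => ⟨x.toG⁻¹⟩⟩

lemma toG_add (x y : Lin G) : (x + y).toG = x.toG * y.toG * hf ⁅y.toG, x.toG⁆ := rfl

omit h in
@[simp] lemma toG_zero : (0 : Lin G).toG = 1 := rfl

omit h in
@[simp] lemma toG_neg (x : Lin G) : (-x).toG = x.toG⁻¹ := rfl

noncomputable instance : AddCommGroup (Lin G) where
  add_assoc x y z := by
    apply Lin.ext
    simp only [toG_add]
    have e1 : ⁅z.toG, x.toG * y.toG * hf ⁅y.toG, x.toG⁆⁆ = ⁅z.toG, x.toG⁆ * ⁅z.toG, y.toG⁆ := by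
      rw [comm_mul_right, comm_mul_right, comm_hf_right, mul_one]
    have e2 : ⁅y.toG * z.toG * hf ⁅z.toG, y.toG⁆, x.toG⁆ = ⁅y.toG, x.toG⁆ * ⁅z.toG, x.toG⁆ := by
      rw [comm_mul_left, comm_mul_left, comm_hf_left, mul_one]
    rw [e1, e2, hf_mul_comm, hf_mul_comm]
    simp only [mul_assoc]
    congr 2
    calc hf ⁅y.toG, x.toG⁆ * (z.toG * (hf ⁅z.toG, x.toG⁆ * hf ⁅z.toG, y.toG⁆))
        = z.toG * (hf ⁅y.toG, x.toG⁆ * (hf ⁅z.toG, x.toG⁆ * hf ⁅z.toG, y.toG⁆)) := by
          rw [← mul_assoc, hf_comm, mul_assoc]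
      _ = z.toG * (hf ⁅z.toG, y.toG⁆ * (hf ⁅y.toG, x.toG⁆ * hf ⁅z.toG, x.toG⁆)) := by
          rw [← hf_comm z.toG y.toG, ← mul_assoc (hf ⁅y.toG, x.toG⁆), hf_comm y.toG x.toG, mul_assoc]
      _ = _ := by simp only [mul_assoc]
  zero_add x := Lin.ext (by simp [toG_add, hf_one])
  add_zero x := Lin.ext (by simp [toG_add, hf_one])
  add_comm x y := by
    apply Lin.ext
    simp only [toG_add]
    have e : y.toG * x.toG = x.toG * y.toG * ⁅y.toG, x.toG⁆ := by
      rw [← h.central]; simp only [commutatorElement_def]; group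
    rw [e, ← commutatorElement_inv y.toG x.toG, hf_inv, mul_assoc (x.toG * y.toG)]
    congr 1
    rw [eq_mul_inv_iff_mul_eq, hf_mul_self]
  neg_add_cancel x := Lin.ext (by simp [toG_add, commutatorElement_def, hf_one])
  nsmul := nsmulRec
  zsmul := zsmulRec

omit h in
/-- The element-wise bijection with the group. -/
def equiv : G ≃ Lin G := ⟨Lin.mk, Lin.toG, fun _ => rfl, fun _ => rfl⟩

instance : Finite (Lin G) := haveI := h.finite; Finite.of_equiv G equiv

/-- A product differs from the sum by half a commutator. -/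
lemma mul_eq (x y : G) :
    (⟨x * y⟩ : Lin G) = ⟨x⟩ + ⟨y⟩ + ⟨hf ⁅x, y⁆⟩ := by
  apply Lin.ext
  simp only [toG_add]
  rw [comm_mul_right, comm_mul_right, comm_hf_left, comm_hf_left, comm_hf_left, mul_one, mul_one, hf_one,
    mul_one, mul_assoc, ← hf_mul_comm, ← commutatorElement_inv y x, mul_inv_cancel, hf_one, mul_one]

lemma eq_zero_of_add_self {x : Lin G} (hx : x + x = 0) : x = 0 := by
  have h2 : (2 : ℕ) • x = 0 := by rw [two_nsmul]; exact hx
  have hc : Nat.card (Lin G) • x = 0 := card_nsmul_eq_zero'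
  obtain ⟨k, hk⟩ := h.odd
  rw [← Nat.card_congr (equiv (G := G)), hk, add_nsmul, mul_nsmul, one_nsmul] at hc
  rw [h2, nsmul_zero, zero_add] at hc
  exact hc

/-- An automorphism of the group acts linearly. -/
noncomputable def mapEnd : MulAut G →* AddMonoid.End (Lin G) where
  toFun σ :=
    { toFun := fun x => ⟨σ x.toG⟩
      map_zero' := Lin.ext (map_one σ)
      map_add' := fun x y => Lin.ext (by
        simp only [toG_add, map_mul, hf, map_pow, map_commutatorElement]) }
  map_one' := AddMonoidHom.ext fun _ => rfl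
  map_mul' _ _ := AddMonoidHom.ext fun _ => rfl

@[simp] lemma mapEnd_apply (σ : MulAut G) (x : Lin G) : (mapEnd σ x).toG = σ x.toG := rfl

/-- The commutator pairing. -/
noncomputable def beta : Lin G →+ Lin G →+ Lin G :=
  AddMonoidHom.mk'
    (fun x => AddMonoidHom.mk' (fun y => ⟨⁅x.toG, y.toG⁆⟩) fun y z => Lin.ext (by
      simp only [toG_add]
      rw [comm_mul_right, comm_mul_right, comm_hf_right, mul_one,
        commutatorElement_eq_one_iff_mul_comm.2 (h.central x.toG z.toG _), hf_one, mul_one]))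
    fun x y => AddMonoidHom.ext fun z => Lin.ext (by
      simp only [AddMonoidHom.mk'_apply, AddMonoidHom.add_apply, toG_add]
      rw [comm_mul_left, comm_mul_left, comm_hf_left, mul_one,
        commutatorElement_eq_one_iff_mul_comm.2 (h.central y.toG z.toG _), hf_one, mul_one])

@[simp] lemma beta_apply (x y : Lin G) : (beta x y).toG = ⁅x.toG, y.toG⁆ := rfl

lemma beta_self (x : Lin G) : beta x x = 0 := Lin.ext (commutatorElement_self _)

/-- Addition of a pair of commuting elements is multiplication. -/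
lemma toG_add_of_comm {x y : Lin G} (hxy : beta y x = 0) : (x + y).toG = x.toG * y.toG := by
  have : ⁅y.toG, x.toG⁆ = 1 := congrArg Lin.toG hxy
  rw [toG_add, this, hf_one, mul_one]

end Lin

end Cfsg.Agent.Lib.KInf
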