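import Mathlib

/-! Ring endomorphisms that are unipotent of index three modulo a radical ideal are trivial modulo it. -/

set_option autoImplicit false

namespace Cfsg.Agent.Lib.KInf

theorem endo_sub_mem_of_cubic {B : Type*} [CommRing B] (Z : Ideal B) (σ : B →+* B) (hσ : ∀ r ∈ Z, σ r ∈ Z)
    (h3 : ∀ r, σ (σ (σ r)) - 3 * σ (σ r) + 3 * σ r - r ∈ Z) (hsq : ∀ r, r * r ∈ Z → r ∈ Z)
    (h6 : ∀ r, 6 * r ∈ Z → r ∈ Z) (r : B) : σ r - r ∈ Z := by
  have key : ∀ r, σ (σ r) - 2 * σ r + r ∈ Z := by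
    intro r
    obtain ⟨u, hu⟩ : ∃ u, u = σ r - r := ⟨_, rfl⟩
    obtain ⟨y, hy⟩ : ∃ y, y = σ u - u := ⟨_, rfl⟩
    obtain ⟨z, hzd⟩ : ∃ z, z = σ y - y := ⟨_, rfl⟩
    have h1 : σ r = r + u := by rw [hu]; ring
    have h2 : σ u = u + y := by rw [hy]; ring
    have h4 : σ y = y + z := by rw [hzd]; ring
    have hzZ : z ∈ Z := by
      have e : σ (σ (σ r)) - 3 * σ (σ r) + 3 * σ r - r = z := by simp only [h1, h2, h4, map_add]; ring
      exact e ▸ h3 r
    have hF : 6 * u * y + 6 * y * y ∈ Z := by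
      have h := h3 (r * r)
      have e : σ (σ (σ (r * r))) - 3 * σ (σ (r * r)) + 3 * σ (r * r) - r * r =
          (6 * u * y + 6 * y * y) + z * (2 * r + 6 * u + 6 * y + z) := by
        simp only [map_mul, h1, h2, h4, map_add]; ring
      rw [e] at h
      exact (Z.add_mem_iff_left (Z.mul_mem_right _ hzZ)).1 h
    have h5 := hσ _ hF
    have e : σ (6 * u * y + 6 * y * y) - (6 * u * y + 6 * y * y) =
        6 * (y * y) + z * (6 * u + 18 * y + 6 * z) := by
      simp only [map_add, map_mul, map_ofNat, h2, h4]; ring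
    have h7 := Z.sub_mem h5 hF
    rw [e] at h7
    have hyZ : y ∈ Z := hsq _ (h6 _ ((Z.add_mem_iff_left (Z.mul_mem_right _ hzZ)).1 h7))
    have e2 : σ (σ r) - 2 * σ r + r = y := by simp only [h1, h2, map_add]; ring
    rwa [e2]
  obtain ⟨u, hu⟩ : ∃ u, u = σ r - r := ⟨_, rfl⟩
  obtain ⟨y, hy⟩ : ∃ y, y = σ u - u := ⟨_, rfl⟩
  have h1 : σ r = r + u := by rw [hu]; ring
  have h2 : σ u = u + y := by rw [hy]; ring
  have hyZ : y ∈ Z := by
    have e : σ (σ r) - 2 * σ r + r = y := by simp only [h1, h2, map_add]; ring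
    exact e ▸ key r
  have h := key (r * r)
  have e : σ (σ (r * r)) - 2 * σ (r * r) + r * r = 2 * (u * u) + y * (2 * r + 4 * u + y) := by
    simp only [map_mul, h1, h2, map_add]; ring
  rw [e] at h
  have h8 : (2 : B) * (u * u) ∈ Z := (Z.add_mem_iff_left (Z.mul_mem_right _ hyZ)).1 h
  rw [← hu]
  refine hsq _ (h6 _ ?_)
  rw [show (6 : B) * (u * u) = 3 * (2 * (u * u)) by ring]
  exact Z.mul_mem_left _ h8

/-- Elements of a finite group on which a conjugation of odd order is, in every domain, trivial or inversion. -/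
theorem hom_comp_eq_of_sum_inv {R : Type*} [Group R] {D : Type*} [CommRing D] [IsDomain D] (ψ : R →* Dˣ)
    (α : R →* R) {o : ℕ} (ho : Odd o) (hα : ∀ c, α^[o] c = c)
    (h : ∀ c, (ψ (α c) : D) + ((ψ (α c))⁻¹ : Dˣ) = (ψ c : D) + ((ψ c)⁻¹ : Dˣ)) (c : R) : ψ (α c) = ψ c := by
  have hor : ∀ c, ψ (α c) = ψ c ∨ ψ (α c) = (ψ c)⁻¹ := by
    intro c
    have e : ((ψ (α c) : D) - ψ c) * ((ψ c : D) * ψ (α c) - 1) = 0 := by
      linear_combination (ψ c : D) * (ψ (α c) : D) * h c - (ψ c : D) * (Units.mul_inv (ψ (α c))) +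
        (ψ (α c) : D) * (Units.mul_inv (ψ c))
    rcases mul_eq_zero.1 e with h1 | h1
    · exact Or.inl (Units.ext (sub_eq_zero.1 h1))
    · refine Or.inr (eq_inv_of_mul_eq_one_right (Units.ext ?_))
      simpa using sub_eq_zero.1 h1
  by_contra hne
  have hinv : ∀ d, ψ (α d) = (ψ d)⁻¹ := by
    intro d
    by_contra hd
    rcases hor (c * d) with h1 | h1
    · rw [map_mul, map_mul, map_mul, (hor c).resolve_left hne, (hor d).resolve_right hd] at h1
      exact hne (((hor c).resolve_left hne).trans (mul_right_cancel h1))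
    · rw [map_mul, map_mul, map_mul, (hor c).resolve_left hne, (hor d).resolve_right hd, mul_inv] at h1
      exact hd (((hor d).resolve_right hd).trans (mul_left_cancel h1))
  have hit : ∀ i, ψ (α^[i] c) = (ψ c) ^ ((-1 : ℤ) ^ i) := by
    intro i
    induction i with
    | zero => simp
    | succ i ih => rw [Function.iterate_succ_apply', hinv, ih, ← zpow_neg, pow_succ, mul_neg_one]
  have h2 := hit o
  rw [hα, ho.neg_one_pow, zpow_neg_one] at h2
  exact hne ((hinv c).trans h2.symm)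

end Cfsg.Agent.Lib.KInf
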