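import Mathlib
import Cfsg.Agent.Lib.KInf.Stable
import Cfsg.Agent.Lib.KInf.KFunctor
import Cfsg.Agent.Lib.KInf.Section
import Cfsg.Agent.Lib.LocalChar.Core

/-! The local hypotheses of the weak closure theorems for the lower K-infinity subgroup. -/

set_option autoImplicit false

open scoped commutatorElement

namespace Cfsg.Agent.Lib.KInf

universe u

variable {p : ℕ} [Fact p.Prime] {G : Type u} [Group G] [Finite G]

omit [Fact p.Prime] [Finite G] in
lemma kInfLower_center_le (P : Subgroup G) :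
    P ⊓ Subgroup.centralizer ((P : Subgroup G) : Set G) ≤ Cfsg.inducedFunctor Cfsg.kInfLower P := by
  rintro x ⟨hx, hxc⟩
  refine ⟨⟨x, hx⟩, (center_le_kInf ↥P).1 ?_, rfl⟩
  exact Subgroup.mem_center_iff.2 fun y => Subtype.ext (hxc y y.2)

/-- A Sylow subgroup of `H` whose lower K-infinity subgroup is not normal in `H` has an element outside `O_p(H)`
acting quadratically on `Z(O_p(H))`. -/
lemma kInfLower_quad {H T : Subgroup G} (hTH : T ≤ H) (hT : IsPGroup p ↥T) (hi : ¬ p ∣ T.relIndex H)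
    (hn : ¬ H ≤ Subgroup.normalizer ((Cfsg.inducedFunctor Cfsg.kInfLower T : Subgroup G) : Set G)) :
    ∃ g : G, g ∈ T ∧ g ∉ Cfsg.pCoreOf p H ∧
      ⁅⁅Cfsg.pCoreOf p H ⊓ Subgroup.centralizer ((Cfsg.pCoreOf p H : Subgroup G) : Set G), Subgroup.zpowers g⁆,
        Subgroup.zpowers g⁆ = ⊥ := by
  have hT' : Cfsg.Agent.Lib.LocalChar.IsSylowIn p T H := ⟨hTH, hT, hi⟩
  have hSm : (hT'.sylow : Subgroup ↥H).map H.subtype = T := by
    rw [hT'.sylow_coe, Subgroup.subgroupOf_map_subtype, inf_eq_left.2 hTH]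
  have hnn : ¬ (Cfsg.inducedFunctor Cfsg.kInfLower (hT'.sylow : Subgroup ↥H)).Normal := by
    intro hnor
    apply hn
    have h := Subgroup.normalizer_eq_top_iff.2 hnor
    have h2 := map_subtype_normalizer (Cfsg.inducedFunctor Cfsg.kInfLower (hT'.sylow : Subgroup ↥H))
    rw [h, ← MonoidHom.range_eq_map, Subgroup.range_subtype,
      ← induced_map (isCharPFunctor_kInfLower p) H.subtype hT'.sylow.2 H.subtype_injective.injOn, hSm] at h2
    exact inf_eq_left.1 h2.symm
  obtain ⟨g, hgS, hgQ, -, hq, -⟩ := exists_degree_four hT'.sylow (Or.inl hnn)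
  refine ⟨g, hgS, fun h => hgQ ?_, ?_⟩
  · obtain ⟨g', hg', e⟩ := h
    rwa [← H.subtype_injective e]
  · have h := congrArg (Subgroup.map H.subtype) hq
    rw [Subgroup.map_bot, Subgroup.map_commutator, Subgroup.map_commutator, MonoidHom.map_zpowers] at h
    refine le_bot_iff.1 (le_trans (Subgroup.commutator_mono (Subgroup.commutator_mono ?_ le_rfl) le_rfl) h.le)
    rintro x ⟨⟨x', hx', rfl⟩, hxc⟩
    exact ⟨x', ⟨hx', fun q hq => Subtype.ext (hxc _ (Subgroup.mem_map_of_mem H.subtype hq))⟩, rfl⟩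

end Cfsg.Agent.Lib.KInf
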