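import Mathlib

/-!
Unipotent levels of an abelian group action and an alternating equivariant pairing into a module on which the
group acts quadratically.
-/

set_option autoImplicit false

namespace Cfsg.Agent.Lib.KInf

variable {Γ : Type*} [Group Γ] {W : Type*} [AddCommGroup W] (ρ : Γ →* AddMonoid.End W)

/-- The difference operator. -/
def del (g : Γ) : W →+ W :=
  { toFun := fun x => ρ g x - x
    map_zero' := by rw [map_zero, sub_zero]
    map_add' := fun x y => by rw [map_add]; abel }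

lemma del_apply (g : Γ) (x : W) : del ρ g x = ρ g x - x := rfl

lemma rho_eq (g : Γ) (x : W) : ρ g x = del ρ g x + x := by rw [del_apply, sub_add_cancel]

lemma rho_inv_rho (g : Γ) (x : W) : ρ g⁻¹ (ρ g x) = x := by
  show (ρ g⁻¹ * ρ g) x = x
  rw [← map_mul, inv_mul_cancel, map_one]; rfl

lemma rho_rho_inv (g : Γ) (x : W) : ρ g (ρ g⁻¹ x) = x := by
  show (ρ g * ρ g⁻¹) x = x
  rw [← map_mul, mul_inv_cancel, map_one]; rfl

lemma del_mul (g h : Γ) (x : W) : del ρ (g * h) x = del ρ g (del ρ h x) + del ρ g x + del ρ h x := by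
  simp only [del_apply, map_mul]
  show ρ g (ρ h x) - x = _
  simp only [map_sub]
  abel

lemma del_one (x : W) : del ρ 1 x = 0 := by
  rw [del_apply, map_one]; exact sub_self x

lemma del_rho_comm (hc : ∀ (g h : Γ) (x : W), ρ g (ρ h x) = ρ h (ρ g x)) (g h : Γ) (x : W) :
    del ρ g (ρ h x) = ρ h (del ρ g x) := by
  rw [del_apply, del_apply, map_sub, hc]

lemma del_comm (hc : ∀ (g h : Γ) (x : W), ρ g (ρ h x) = ρ h (ρ g x)) (g h : Γ) (x : W) :
    del ρ g (del ρ h x) = del ρ h (del ρ g x) := by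
  simp only [del_apply, map_sub, hc g h]; abel

/-- The levels below `U`. -/
def lev (U : AddSubgroup W) : ℕ → AddSubgroup W
  | 0 => U
  | k + 1 => AddSubgroup.closure {z | ∃ g, ∃ x ∈ lev U k, z = del ρ g x}

variable {ρ}

lemma del_mem_lev {U : AddSubgroup W} {k : ℕ} (g : Γ) {x : W} (hx : x ∈ lev ρ U k) :
    del ρ g x ∈ lev ρ U (k + 1) :=
  AddSubgroup.subset_closure ⟨g, x, hx, rfl⟩

lemma lev_succ_le_iff {U K : AddSubgroup W} {k : ℕ} :
    lev ρ U (k + 1) ≤ K ↔ ∀ g, ∀ x ∈ lev ρ U k, del ρ g x ∈ K := by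
  refine ⟨fun h g x hx => h (del_mem_lev g hx), fun h => (AddSubgroup.closure_le _).2 ?_⟩
  rintro _ ⟨g, x, hx, rfl⟩
  exact h g x hx

lemma lev_mono {U U' : AddSubgroup W} (h : U ≤ U') : ∀ k, lev ρ U k ≤ lev ρ U' k
  | 0 => h
  | k + 1 => lev_succ_le_iff.2 fun g _ hx => del_mem_lev g (lev_mono h k hx)

lemma lev_anti {U : AddSubgroup W} (hU : ∀ g, ∀ x ∈ U, ρ g x ∈ U) : ∀ k, lev ρ U (k + 1) ≤ lev ρ U k
  | 0 => lev_succ_le_iff.2 fun g x hx => U.sub_mem (hU g x hx) hx
  | k + 1 => lev_succ_le_iff.2 fun g _ hx => del_mem_lev g (lev_anti hU k hx)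

lemma lev_le_of_le {U : AddSubgroup W} (hU : ∀ g, ∀ x ∈ U, ρ g x ∈ U) {i j : ℕ} (h : i ≤ j) :
    lev ρ U j ≤ lev ρ U i := by
  induction h with
  | refl => exact le_rfl
  | step _ ih => exact (lev_anti hU _).trans ih

lemma rho_mem_lev {U : AddSubgroup W} (hU : ∀ g, ∀ x ∈ U, ρ g x ∈ U) {k : ℕ} (g : Γ) {x : W}
    (hx : x ∈ lev ρ U k) : ρ g x ∈ lev ρ U k := by
  rw [rho_eq]; exact add_mem (lev_anti hU k (del_mem_lev g hx)) hx

lemma lev_add {U : AddSubgroup W} : ∀ (i j : ℕ), lev ρ (lev ρ U i) j ≤ lev ρ U (i + j)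
  | _, 0 => le_rfl
  | i, j + 1 => lev_succ_le_iff.2 fun g _ hx => del_mem_lev g (lev_add i j hx)

lemma mem_top_inv : ∀ g, ∀ x ∈ (⊤ : AddSubgroup W), ρ g x ∈ (⊤ : AddSubgroup W) :=
  fun _ _ _ => AddSubgroup.mem_top _

variable (ρ) in
/-- An alternating equivariant pairing with quadratic image. -/
structure Pairing (β : W →+ W →+ W) (K : AddSubgroup W) : Prop where
  comm : ∀ (g h : Γ) (x : W), ρ g (ρ h x) = ρ h (ρ g x)
  equiv : ∀ g x y, ρ g (β x y) = β (ρ g x) (ρ g y)
  self : ∀ x, β x x = 0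
  rad : ∀ x, ∀ k ∈ K, β x k = 0
  quad : ∀ g h x y, del ρ g (del ρ h (β x y)) = 0
  tor : ∀ x : W, x + x = 0 → x = 0

namespace Pairing

variable {β : W →+ W →+ W} {K : AddSubgroup W} (P : Pairing ρ β K)
include P

lemma skew (x y : W) : β x y = - β y x := by
  have h := P.self (x + y)
  simp only [map_add, AddMonoidHom.add_apply, P.self, add_zero, zero_add] at h
  exact eq_neg_of_add_eq_zero_left ((add_comm _ _).trans h)

lemma del_beta (g : Γ) (x y : W) :
    del ρ g (β x y) = β (del ρ g x) y + β x (del ρ g y) + β (del ρ g x) (del ρ g y) := by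
  rw [del_apply, P.equiv, rho_eq ρ g x, rho_eq ρ g y]
  simp only [map_add, AddMonoidHom.add_apply]
  abel

lemma beta_del (g : Γ) (x y : W) :
    β (del ρ g x) y = del ρ g (β x (ρ g⁻¹ y)) - β x (del ρ g (ρ g⁻¹ y)) := by
  obtain ⟨y', rfl⟩ : ∃ y', y = ρ g y' := ⟨_, (rho_rho_inv ρ g y).symm⟩
  rw [rho_inv_rho, P.del_beta, rho_eq ρ g y']
  simp only [map_add]
  abel

/-- Pairs of total level at least `n` pair into the fixed points. -/
lemma deg_fixed {n : ℕ} (hn : lev ρ ⊤ n ≤ K) : ∀ (a b : ℕ), n ≤ a + b → ∀ x ∈ lev ρ ⊤ a, ∀ y ∈ lev ρ ⊤ b,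
    ∀ g, del ρ g (β x y) = 0 := by
  intro a
  induction a with
  | zero =>
    intro b hb x _ y hy g
    rw [P.rad x y (hn (lev_le_of_le mem_top_inv (by simpa using hb) hy)), map_zero]
  | succ a ih =>
    intro b hb x hx y hy g
    induction hx using AddSubgroup.closure_induction with
    | mem _ h =>
      obtain ⟨l, x, hx, rfl⟩ := h
      rw [P.beta_del, map_sub, P.quad, ih (b + 1) (by omega) x hx _
        (del_mem_lev l (rho_mem_lev mem_top_inv _ hy)) g, sub_zero]
    | zero => simp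
    | add u v _ _ hu hv => simp [hu, hv]
    | neg u _ hu => simp [hu]

/-- Pairs of total level above `n` pair to zero. -/
lemma deg_zero {n : ℕ} (hn : lev ρ ⊤ n ≤ K) : ∀ (a b : ℕ), n + 1 ≤ a + b → ∀ x ∈ lev ρ ⊤ a, ∀ y ∈ lev ρ ⊤ b,
    β x y = 0 := by
  intro a
  induction a with
  | zero =>
    intro b hb x _ y hy
    exact P.rad x y (hn (lev_le_of_le mem_top_inv (by omega) hy))
  | succ a ih =>
    intro b hb x hx y hy
    induction hx using AddSubgroup.closure_induction with
    | mem _ h =>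
      obtain ⟨l, x, hx, rfl⟩ := h
      rw [P.beta_del, P.deg_fixed hn a b (by omega) x hx _ (rho_mem_lev mem_top_inv _ hy),
        ih (b + 1) (by omega) x hx _ (del_mem_lev l (rho_mem_lev mem_top_inv _ hy)), sub_zero]
    | zero => simp
    | add u v _ _ hu hv => simp [hu, hv]
    | neg u _ hu => simp [hu]

/-- A fixed vector pairs with the first level into the fixed points. -/
lemma perp_fixed_one {t : W} (ht : ∀ g, del ρ g t = 0) {x : W} (hx : x ∈ lev ρ ⊤ 1) (g : Γ) :
    del ρ g (β x t) = 0 := by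
  induction hx using AddSubgroup.closure_induction with
  | mem _ h =>
    obtain ⟨l, x, -, rfl⟩ := h
    rw [P.beta_del, map_sub, P.quad, rho_eq ρ l⁻¹ t, ht, zero_add, ht, map_zero, map_zero, sub_zero]
  | zero => simp
  | add u v _ _ hu hv => simp [hu, hv]
  | neg u _ hu => simp [hu]

/-- A fixed vector is orthogonal to the second level. -/
lemma perp_fixed_two {t : W} (ht : ∀ g, del ρ g t = 0) {x : W} (hx : x ∈ lev ρ ⊤ 2) : β x t = 0 := by
  induction hx using AddSubgroup.closure_induction with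
  | mem _ h =>
    obtain ⟨l, x, hx, rfl⟩ := h
    rw [P.beta_del, rho_eq ρ l⁻¹ t, ht, zero_add, ht, map_zero, sub_zero, P.perp_fixed_one ht hx]
  | zero => simp
  | add u v _ _ hu hv => simp [hu, hv]
  | neg u _ hu => simp [hu]

section Five

variable (h5 : lev ρ ⊤ 5 ≤ K)
include h5

lemma eq_five (l m : Γ) {i j : ℕ} (hij : i + j = 3) {x y : W} (hx : x ∈ lev ρ ⊤ i) (hy : y ∈ lev ρ ⊤ j) :
    β (del ρ l (del ρ m x)) y + β (del ρ m x) (del ρ l y) + β (del ρ l x) (del ρ m y)
      + β x (del ρ l (del ρ m y)) = 0 := by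
  have h := P.quad l m x y
  rw [P.del_beta m, map_add, map_add, P.del_beta l, P.del_beta l, P.del_beta l] at h
  rw [P.deg_zero h5 (i + 2) (j + 1) (by omega) _ (del_mem_lev l (del_mem_lev m hx)) _ (del_mem_lev l hy),
    P.deg_zero h5 (i + 1) (j + 2) (by omega) _ (del_mem_lev l hx) _ (del_mem_lev l (del_mem_lev m hy)),
    P.deg_zero h5 (i + 2) (j + 1) (by omega) _ (del_mem_lev l (del_mem_lev m hx)) _ (del_mem_lev m hy),
    P.deg_zero h5 (i + 1) (j + 2) (by omega) _ (del_mem_lev m hx) _ (del_mem_lev l (del_mem_lev m hy)),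
    P.deg_zero h5 (i + 2) (j + 2) (by omega) _ (del_mem_lev l (del_mem_lev m hx)) _
      (del_mem_lev l (del_mem_lev m hy))] at h
  rw [← h]; abel

lemma two_three_eq (u : W) (a b c e g : Γ) :
    β (del ρ a (del ρ b u)) (del ρ c (del ρ e (del ρ g u))) =
      - β (del ρ b u) (del ρ a (del ρ c (del ρ e (del ρ g u))))
        - β (del ρ a u) (del ρ b (del ρ c (del ρ e (del ρ g u)))) := by
  have hy := del_mem_lev c (del_mem_lev e (del_mem_lev (ρ := ρ) (k := 0) g (AddSubgroup.mem_top u)))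
  have h := P.eq_five h5 a b (i := 0) (j := 3) rfl (AddSubgroup.mem_top u) hy
  rw [P.rad u _ (h5 (del_mem_lev a (del_mem_lev b hy))), add_zero] at h
  rw [← sub_eq_zero, ← h]; abel

/-- Five factors: the pairs of shape one-four and two-three vanish on a cyclic module. -/
lemma five (u : W) (a b c e g : Γ) :
    β (del ρ a u) (del ρ b (del ρ c (del ρ e (del ρ g u)))) = 0 ∧
    β (del ρ a (del ρ b u)) (del ρ c (del ρ e (del ρ g u))) = 0 := by
  obtain ⟨F, hF⟩ : ∃ F : Γ → Γ → Γ → Γ → Γ → W,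
      ∀ a b c e g, β (del ρ a u) (del ρ b (del ρ c (del ρ e (del ρ g u)))) = F a b c e g := ⟨_, fun _ _ _ _ _ => rfl⟩
  have hc := del_comm ρ P.comm
  have p1 : ∀ a b c e g, F a b c e g = F a c b e g := fun a b c e g => by rw [← hF, ← hF, hc b c]
  have p2 : ∀ a b c e g, F a b c e g = F a b e c g := fun a b c e g => by rw [← hF, ← hF, hc c e]
  have p3 : ∀ a b c e g, F a b c e g = F a b c g e := fun a b c e g => by rw [← hF, ← hF, hc e g]
  have key : ∀ l m n r s, F r s l m n + F s r l m n - F l m n r s - F m l n r s - F n l m r s = 0 := by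
    intro l m n r s
    have h := P.eq_five h5 l m (i := 1) (j := 2) rfl (del_mem_lev n (AddSubgroup.mem_top u))
      (del_mem_lev r (del_mem_lev s (AddSubgroup.mem_top u)))
    rw [P.skew (del ρ l (del ρ m (del ρ n u))), P.two_three_eq h5 u r s, P.two_three_eq h5 u m n,
      P.two_three_eq h5 u l n] at h
    simp only [hF] at h
    rw [p1 n m l r s] at h
    rw [p1 l n m r s, p1 m n l r s] at h
    rw [← h]; abel
  have sort : ∀ a b c e g, F b a c e g = F b a c e g := fun _ _ _ _ _ => rfl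
  clear sort
  -- any two of the five values are equal
  have swap : ∀ a b c e g, F b c e g a = F c b e g a := by
    intro a b c e g
    have k1 := key c e g a b
    have k2 := key b e g a c
    -- the pairs `{a, b}` and `{a, c}`
    have n1 : F a b c e g = F a c b e g := p1 _ _ _ _ _
    have n2 : F b a c e g = F b c e g a := by rw [p1 b a c, p2 b c a, p3 b c e]
    have n3 : F c e g a b = F c b e g a := by rw [p3 c e g a, p2 c e g b, p1 c e b]
    have n4 : F e c g a b = F e b g a c := by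
      rw [p3 e c g a, p2 e c g b, p1 e c b, p2 e b c g, p3 e b g c]
    have n5 : F g c e a b = F g b e a c := by
      rw [p3 g c e a, p2 g c e b, p1 g c b, p2 g b c e, p3 g b e c]
    have n6 : F c a b e g = F c b e g a := by rw [p1 c a b, p2 c b a, p3 c b e]
    have n7 : F b e g a c = F b c e g a := by rw [p3 b e g a, p2 b e g c, p1 b e c]
    rw [n1, n2, n3, n4, n5] at k1
    rw [n6, n7] at k2
    refine sub_eq_zero.1 (P.tor _ ?_)
    calc F b c e g a - F c b e g a + (F b c e g a - F c b e g a)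
        = (F a c b e g + F b c e g a - F c b e g a - F e b g a c - F g b e a c)
          - (F a c b e g + F c b e g a - F b c e g a - F e b g a c - F g b e a c) := by abel
      _ = 0 := by rw [k1, k2, sub_zero]
  have sw : ∀ a b c e g, F a b c e g = F b a c e g := fun a b c e g => swap g a b c e
  have zero : ∀ a b c e g, F a b c e g = 0 := by
    intro a b c e g
    have k := key c e g a b
    have e1 : F b a c e g = F a b c e g := (sw a b c e g).symm
    have e2 : F c e g a b = F a b c e g := by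
      rw [p2 c e g a b, p1 c e a g b, sw c a e g b, p3 a c e g b, p2 a c e b g, p1 a c b e g]
    have e3 : F e c g a b = F a b c e g := by rw [← sw c e g a b, e2]
    have e4 : F g c e a b = F a b c e g := by
      rw [sw g c e a b, p1 c g e, e2]
    rw [e1, e2, e3, e4] at k
    rw [← neg_eq_zero, ← k]; abel
  refine ⟨by rw [hF, zero], ?_⟩
  rw [P.two_three_eq h5, hF, hF, zero, zero, neg_zero, sub_zero]

end Five

end Pairing

end Cfsg.Agent.Lib.KInf
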