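import Mathlib
import Cfsg.Agent.Lib.LocalChar.Core

/-! The fixed points in an abelian normal `p`-subgroup are a direct factor of the fixed points of a Sylow subgroup. -/

set_option autoImplicit false

namespace Cfsg.Agent.Lib.KInf

universe u

/-- Averaging over the cosets of a Sylow subgroup splits off the central part of an abelian normal `p`-subgroup. -/
theorem fixed_split {p : ℕ} [Fact p.Prime] {N : Type u} [Group N] [Finite N] (S : Sylow p N) (M : Subgroup N)
    [M.Normal] (hp : IsPGroup p ↥M) (hab : ∀ a ∈ M, ∀ b ∈ M, a * b = b * a) :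
    ∃ K : Subgroup N, K ≤ M ⊓ Subgroup.centralizer ((S : Subgroup N) : Set N) ∧ (M ⊓ Subgroup.center N) ⊓ K = ⊥ ∧
      (M ⊓ Subgroup.center N) ⊔ K = M ⊓ Subgroup.centralizer ((S : Subgroup N) : Set N) := by
  classical
  letI : CommGroup ↥M :=
    { (inferInstance : Group ↥M) with
      mul_comm := fun a b => Subtype.ext (hab a a.2 b b.2) }
  set Z := M ⊓ Subgroup.centralizer ((S : Subgroup N) : Set N) with hZ
  set Ω := N ⧸ (S : Subgroup N)
  have := Fintype.ofFinite Ω
  let act : N → ↥Z →* ↥M := fun g =>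
    (MulAut.conjNormal g : MulAut ↥M).toMonoidHom.comp (Subgroup.inclusion (inf_le_left : Z ≤ M))
  have hact : ∀ (g : N) (z : ↥Z), ((act g z : ↥M) : N) = g * z * g⁻¹ := fun g z => MulAut.conjNormal_apply g _
  let φ : Ω → ↥Z →* ↥M := Quotient.lift act (by
    intro g k hgk
    have hs : g⁻¹ * k ∈ (S : Subgroup N) := QuotientGroup.leftRel_apply.1 hgk
    refine MonoidHom.ext fun z => Subtype.ext ?_
    rw [hact, hact]
    have h1 : (g⁻¹ * k) * z * (g⁻¹ * k)⁻¹ = (z : N) := by rw [z.2.2 _ hs, mul_inv_cancel_right]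
    calc g * z * g⁻¹ = g * ((g⁻¹ * k) * z * (g⁻¹ * k)⁻¹) * g⁻¹ := by rw [h1]
      _ = k * z * k⁻¹ := by group)
  have hφ : ∀ (g : N), φ (g : Ω) = act g := fun _ => rfl
  let f : ↥Z →* ↥M := ∏ q, φ q
  have hfz : ∀ z, f z = ∏ q, φ q z := fun z => MonoidHom.finsetProd_apply _ _ _
  have hfix : ∀ (z : ↥Z) (y : N), ((MulAut.conjNormal y : MulAut ↥M) (f z)) = f z := by
    intro z y
    rw [hfz, map_prod]
    refine Fintype.prod_equiv (MulAction.toPerm y) (fun q => (MulAut.conjNormal y : MulAut ↥M) (φ q z)) (fun q => φ q z) fun q => ?_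
    induction q using QuotientGroup.induction_on with
    | _ g =>
      refine Subtype.ext ?_
      show ((MulAut.conjNormal y (act g z) : ↥M) : N) = ((φ ((y * g : N) : Ω) z : ↥M) : N)
      rw [hφ, MulAut.conjNormal_apply, hact, hact]
      group
  have hfcenter : ∀ z, ((f z : ↥M) : N) ∈ Subgroup.center N := fun z => Subgroup.mem_center_iff.2 fun y => by
    have h := congrArg Subtype.val (hfix z y)
    rw [MulAut.conjNormal_apply] at h
    exact mul_inv_eq_iff_eq_mul.1 h
  set n := Fintype.card Ω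
  have hn : Nat.Coprime n p := by
    refine ((Fact.out : p.Prime).coprime_iff_not_dvd.2 ?_).symm
    have := S.not_dvd_index
    rwa [Subgroup.index_eq_card, Nat.card_eq_fintype_card] at this
  have hfW : ∀ z : ↥Z, (z : N) ∈ Subgroup.center N → ((f z : ↥M) : N) = (z : N) ^ n := by
    intro z hz
    have h1 : ∀ q, φ q z = ⟨z, z.2.1⟩ := by
      intro q
      induction q using QuotientGroup.induction_on with
      | _ g => rw [hφ]; exact Subtype.ext (by rw [hact, Subgroup.mem_center_iff.1 hz g, mul_inv_cancel_right])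
    rw [hfz, Finset.prod_congr rfl (fun q _ => h1 q), Finset.prod_const, Finset.card_univ, SubmonoidClass.coe_pow]
  refine ⟨f.ker.map Z.subtype, Subgroup.map_subtype_le _, ?_, le_antisymm (sup_le ?_ (Subgroup.map_subtype_le _)) ?_⟩
  · rw [eq_bot_iff]
    rintro x ⟨⟨hxM, hxc⟩, z, hz, rfl⟩
    have h1 : (z : N) ^ n = 1 := by rw [← hfW z hxc, MonoidHom.mem_ker.1 hz, OneMemClass.coe_one]
    obtain ⟨k, hk⟩ := hp ⟨z, z.2.1⟩
    have hk' : (z : N) ^ p ^ k = 1 := congrArg Subtype.val hk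
    rw [Subgroup.mem_bot]
    show (z : N) = 1
    exact orderOf_eq_one_iff.1 (Nat.eq_one_of_dvd_coprimes (hn.pow_right k) (orderOf_dvd_of_pow_eq_one h1) (orderOf_dvd_of_pow_eq_one hk'))
  · exact inf_le_inf_left _ (Subgroup.center_le_centralizer _)
  · intro x hx
    set w : ↥M := f ⟨x, hx⟩ with hw
    obtain ⟨k, hk⟩ := hp w
    have hwn : (orderOf w).Coprime n :=
      ((hn.pow_right k).symm).coprime_dvd_left (orderOf_dvd_of_pow_eq_one hk)
    obtain ⟨i, hi⟩ := exists_pow_eq_self_of_coprime hwn.symm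
    set v : N := (w : N) ^ i with hv
    have hvc : v ∈ Subgroup.center N := pow_mem (hfcenter _) i
    have hvM : v ∈ M := pow_mem w.2 i
    have hvZ : v ∈ Z := ⟨hvM, Subgroup.center_le_centralizer _ hvc⟩
    rw [← mul_inv_cancel_left v x]
    refine mul_mem (Subgroup.mem_sup_left ⟨hvM, hvc⟩) (Subgroup.mem_sup_right ⟨⟨v, hvZ⟩⁻¹ * ⟨x, hx⟩, ?_, rfl⟩)
    show f _ = 1
    rw [map_mul, map_inv, inv_mul_eq_one]
    refine Subtype.ext ?_
    rw [hfW _ hvc, ← hw]
    show ((w : N) ^ i) ^ n = w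
    rw [← pow_mul, mul_comm, pow_mul]
    exact congrArg Subtype.val hi

end Cfsg.Agent.Lib.KInf
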