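import Mathlib.GroupTheory.Transfer
import Mathlib.Algebra.Group.Subgroup.Finite
import Cfsg.Agent.Lib.Transfer.Hall

/-!
Tate's theorem in transfer form: a subgroup containing a Sylow subgroup `P` which controls `P ∩ G'` has the
same largest `p`-factor group as `G`.
-/

set_option autoImplicit false
open Subgroup
open scoped IsMulCommutative commutatorElement

namespace Cfsg.Agent.Lib.KInf

open Cfsg Cfsg.Agent.Lib.Transfer

variable {G : Type*} [Group G] [Finite G] {p : ℕ} [Fact p.Prime]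

/-- A central extension of `G ⧸ O^p(G)` by a `p`-group that splits over a Sylow subgroup splits. -/
theorem exists_section {B : Type*} [Group B] [Finite B] (hB : IsPGroup p B) (P : Sylow p G)
    (π' : B →* G ⧸ pResidual p G) (hπ' : Function.Surjective π') (hc : π'.ker ≤ center B)
    (v : (P : Subgroup G) →* B) (hv : ∀ x : (P : Subgroup G), π' (v x) = QuotientGroup.mk' _ (x : G)) :
    ∃ σ : G ⧸ pResidual p G →* B, ∀ g, π' (σ g) = g := by
  set M := pResidual p G with hMdef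
  let π : G →* G ⧸ M := QuotientGroup.mk' M
  let A : Subgroup B := π'.ker
  have hAc : ∀ a ∈ A, ∀ e, a * e = e * a := fun a ha e => (mem_center_iff.mp (hc ha) e).symm
  have hAcomm : IsMulCommutative A := ⟨⟨fun a b => Subtype.ext (hAc a a.2 b)⟩⟩
  let E : Subgroup (G × B) := (π.comp (MonoidHom.fst _ _)).eqLocus (π'.comp (MonoidHom.snd _ _))
  have hE : ∀ x, x ∈ E ↔ π x.1 = π' x.2 := fun x => Iff.rfl
  let f : E →* G := (MonoidHom.fst _ _).comp E.subtype
  have hf : Function.Surjective f := fun g => by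
    obtain ⟨b, hb⟩ := hπ' (π g)
    exact ⟨⟨(g, b), hb.symm⟩, rfl⟩
  let H : Subgroup E := (P : Subgroup G).comap f
  have hindex : H.index = (P : Subgroup G).index := index_comap_of_surjective _ hf
  let r₀ : H → B := fun x => (x.1.1.2 : B) * (v ⟨f x.1, x.2⟩)⁻¹
  have hr₀ : ∀ x, r₀ x ∈ A := by
    intro x
    show π' _ = 1
    rw [map_mul, map_inv, mul_inv_eq_one, hv]
    exact ((hE x.1.1).mp x.1.2).symm
  let r : H →* A := MonoidHom.mk' (fun x => ⟨r₀ x, hr₀ x⟩) (by
    intro x y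
    apply Subtype.ext
    show r₀ (x * y) = r₀ x * r₀ y
    have hy := hAc _ (hr₀ y)
    have hmk : v ⟨f (x.1 * y.1), (x * y).2⟩ = v ⟨f x.1, x.2⟩ * v ⟨f y.1, y.2⟩ := by
      rw [← map_mul]
      exact congrArg v (Subtype.ext (map_mul f _ _))
    simp only [r₀, Subgroup.coe_mul, Prod.snd_mul] at hy ⊢
    rw [hmk]
    set a := (x.1.1.2 : B)
    set b := (y.1.1.2 : B)
    set c := v ⟨f x.1, x.2⟩
    set d := v ⟨f y.1, y.2⟩
    calc a * b * (c * d)⁻¹ = a * ((b * d⁻¹) * c⁻¹) := by group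
      _ = a * (c⁻¹ * (b * d⁻¹)) := by rw [hy c⁻¹]
      _ = a * c⁻¹ * (b * d⁻¹) := by group)
  let t := MonoidHom.transfer r
  let ι : A →* E := MonoidHom.mk' (fun a => ⟨(1, a.1), by
      rw [hE, map_one]; exact (MonoidHom.mem_ker.mp a.2).symm⟩)
    (fun a b => Subtype.ext (Prod.ext (by simp) (by simp)))
  have hιc : ∀ a, ι a ∈ center E := fun a => mem_center_iff.mpr fun x =>
    Subtype.ext (Prod.ext (by simp [ι]) (hAc _ a.2 _).symm)
  have hιH : ∀ a, ι a ∈ H := fun a => show (1 : G) ∈ (P : Subgroup G) from one_mem _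
  have htι : ∀ a, t (ι a) = a ^ H.index := by
    intro a
    have key : ∀ (k : ℕ) (g₀ : E), g₀⁻¹ * ι a ^ k * g₀ ∈ H → g₀⁻¹ * ι a ^ k * g₀ = ι a ^ k := by
      intro k g₀ _
      rw [mul_assoc, ← (mem_center_iff.mp (pow_mem (hιc a) k) g₀), inv_mul_cancel_left]
    rw [MonoidHom.transfer_eq_pow r (ι a) key]
    have : r ⟨ι a, hιH a⟩ = a := by
      apply Subtype.ext
      show (a.1 : B) * (v _)⁻¹ = a.1
      have : (⟨f (ι a), hιH a⟩ : (P : Subgroup G)) = 1 := Subtype.ext rfl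
      rw [this, map_one, inv_one, mul_one]
    conv_rhs => rw [← this, ← map_pow]
    exact congrArg r (Subtype.ext rfl)
  have hcop : (Nat.card A).Coprime H.index := by
    obtain ⟨n, hn⟩ := IsPGroup.iff_card.mp (hB.to_subgroup A)
    rw [hn, hindex]
    exact ((Fact.out : p.Prime).coprime_iff_not_dvd.mpr P.not_dvd_index).pow_left n
  have hbij : Function.Bijective fun a : A => a ^ H.index := (powCoprime hcop).bijective
  let K : Subgroup E := t.ker
  let fK : K →* G := f.comp K.subtype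
  have hinj : Function.Injective fK := by
    rw [injective_iff_map_eq_one]
    intro x hx
    have h1 : (x.1.1.2 : B) ∈ A := by
      show π' _ = 1
      rw [← (hE _).mp x.1.2]
      show π (f x.1) = 1
      rw [show f x.1 = 1 from hx, map_one]
    have h2 : x.1 = ι ⟨_, h1⟩ := Subtype.ext (Prod.ext hx rfl)
    have h3 : t x.1 = 1 := x.2
    rw [h2, htι] at h3
    have h4 : (⟨_, h1⟩ : A) = 1 := hbij.1 (h3.trans (one_pow _).symm)
    exact Subtype.ext (h2.trans (by rw [h4, map_one]; rfl))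
  have hsurjK : Function.Surjective fK := by
    intro g
    obtain ⟨e, he⟩ := hf g
    obtain ⟨a, ha⟩ := hbij.2 (t e)
    refine ⟨⟨e * (ι a)⁻¹, ?_⟩, ?_⟩
    · rw [MonoidHom.mem_ker, map_mul, map_inv, htι]
      exact mul_inv_eq_one.mpr ha.symm
    · show f (e * (ι a)⁻¹) = g
      rw [map_mul, map_inv, he]
      show g * (1 : G)⁻¹ = g
      simp
  let s : G →* K := (MulEquiv.ofBijective fK ⟨hinj, hsurjK⟩).symm.toMonoidHom
  have hs : ∀ g, fK (s g) = g := fun g => (MulEquiv.ofBijective fK ⟨hinj, hsurjK⟩).apply_symm_apply g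
  let ψ : G →* B := ((MonoidHom.snd _ _).comp (E.subtype.comp K.subtype)).comp s
  have hψπ : ∀ g, π' (ψ g) = π g := fun g =>
    ((hE _).mp (s g).1.2).symm.trans (congrArg π (hs g))
  refine ⟨QuotientGroup.lift M ψ (pResidual_le_ker ψ hB), ?_⟩
  rintro ⟨g⟩
  exact hψπ g

/-- If `P ∩ G' ≤ V'` then `P ∩ O^p(G) ≤ O^p(V)`. -/
theorem subgroupOf_pResidual_le (P : Sylow p G) (V : Subgroup G) (hPV : (P : Subgroup G) ≤ V)
    (h : (P : Subgroup G) ⊓ commutator G ≤ ⁅V, V⁆) :
    (pResidual p G).subgroupOf V ≤ pResidual p V := by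
  set M := pResidual p G with hM
  let π₀ := QuotientGroup.mk' (pResidual p V)
  set N := (M.subgroupOf V).map π₀ with hN
  suffices hb : N = ⊥ by
    intro x hx
    have : π₀ x ∈ N := mem_map_of_mem _ hx
    rw [hb, mem_bot] at this
    exact (QuotientGroup.eq_one_iff x).mp this
  haveI hNn : N.Normal := (inferInstance : (M.subgroupOf V).Normal).map π₀ (QuotientGroup.mk'_surjective _)
  have hQ : IsPGroup p (V ⧸ pResidual p V) := isPGroup_quotient_pResidual
  have hnil : Group.IsNilpotent (V ⧸ pResidual p V) := hQ.isNilpotent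
  refine eq_bot_of_le_commutator_top ?_
  set N0 := ⁅N, (⊤ : Subgroup (V ⧸ pResidual p V))⁆ with hN0
  have hN0le : N0 ≤ N := commutator_le_left _ _
  let q := QuotientGroup.mk' N0
  let φ : (V ⧸ pResidual p V) →* G ⧸ M := QuotientGroup.lift _ ((QuotientGroup.mk' M).comp V.subtype) (by
    intro x hx
    exact (QuotientGroup.eq_one_iff _).mpr (map_pResidual_subtype_le V (mem_map_of_mem _ hx)))
  have hφN : ∀ y, φ y = 1 → y ∈ N := by
    rintro ⟨y⟩ hy
    exact ⟨y, (QuotientGroup.eq_one_iff (y : G)).mp hy, rfl⟩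
  have hNφ : N ≤ φ.ker := by
    rintro _ ⟨y, hy, rfl⟩
    exact (QuotientGroup.eq_one_iff (y : G)).mpr hy
  let π' : (V ⧸ pResidual p V) ⧸ N0 →* G ⧸ M := QuotientGroup.lift N0 φ (hN0le.trans hNφ)
  have hker : π'.ker = N.map q := by
    ext y
    obtain ⟨y, rfl⟩ := QuotientGroup.mk'_surjective N0 y
    exact ⟨fun hy => mem_map_of_mem q (hφN y hy), fun ⟨n, hn, e⟩ => by
      rw [MonoidHom.mem_ker, show π' (QuotientGroup.mk' N0 y) = π' (q n) from congrArg π' e.symm]
      exact hNφ hn⟩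
  have hπ's : Function.Surjective π' := by
    rintro ⟨g⟩
    have hg : g ∈ M ⊔ (P : Subgroup G) := (pResidual_sup_sylow P).symm ▸ mem_top g
    obtain ⟨m, hm, x, hx, rfl⟩ := mem_sup_of_normal_left.mp hg
    refine ⟨q (π₀ ⟨x, hPV hx⟩), ?_⟩
    show QuotientGroup.mk' M x = QuotientGroup.mk' M (m * x)
    rw [map_mul, show QuotientGroup.mk' M m = 1 from (QuotientGroup.eq_one_iff m).mpr hm, one_mul]
  have hc : π'.ker ≤ center _ := by
    rw [hker]
    rintro _ ⟨n, hn, rfl⟩
    rw [mem_center_iff]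
    rintro ⟨e⟩
    refine ((commutatorElement_eq_one_iff_commute (g₁ := q n) (g₂ := q e)).mp ?_).symm
    rw [← map_commutatorElement]
    exact (QuotientGroup.eq_one_iff _).mpr (commutator_mem_commutator hn (mem_top e))
  obtain ⟨σ, hσ⟩ := exists_section (hQ.to_quotient N0) P π' hπ's hc
    ((q.comp π₀).comp (inclusion hPV)) (fun x => rfl)
  -- the kernel meets the derived subgroup trivially, and lies in it
  have hR : commutator ((V ⧸ pResidual p V) ⧸ N0) ≤ σ.range := by
    have hdec : ∀ y, (σ (π' y))⁻¹ * y ∈ center _ := fun y => hc (by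
      rw [MonoidHom.mem_ker, map_mul, map_inv, hσ, inv_mul_cancel])
    rw [commutator_def, commutator_le]
    intro a _ b _
    obtain ⟨za, hza, ea⟩ : ∃ z ∈ center _, a = σ (π' a) * z := ⟨_, hdec a, by rw [mul_inv_cancel_left]⟩
    obtain ⟨zb, hzb, eb⟩ : ∃ z ∈ center _, b = σ (π' b) * z := ⟨_, hdec b, by rw [mul_inv_cancel_left]⟩
    have hcc : ∀ {s t z : (V ⧸ pResidual p V) ⧸ N0}, z ∈ center _ → ⁅s * z, t⁆ = ⁅s, t⁆ ∧ ⁅s, t * z⁆ = ⁅s, t⁆ := by
      intro s t z hz
      rw [mem_center_iff] at hz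
      constructor
      · simp only [commutatorElement_def, mul_inv_rev, mul_assoc]
        rw [← mul_assoc z t, ← hz t, mul_assoc t z, ← mul_assoc z z⁻¹, mul_inv_cancel, one_mul]
      · simp only [commutatorElement_def, mul_inv_rev, mul_assoc]
        rw [← mul_assoc z s⁻¹, ← hz s⁻¹, mul_assoc s⁻¹ z, ← mul_assoc z z⁻¹, mul_inv_cancel, one_mul]
    rw [ea, eb, (hcc hza).1, (hcc hzb).2, ← map_commutatorElement]
    exact ⟨_, rfl⟩
  intro n hn
  obtain ⟨x, hx, rfl⟩ := hn
  have hx' : (x : G) ∈ M ⊔ ⊥ := by rw [sup_bot_eq]; exact hx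
  obtain ⟨e, he, s, hs, hes⟩ : ∃ e ∈ pResidual p V, ∃ s ∈ (P.subtype hPV : Subgroup V), e * s = x :=
    mem_sup_of_normal_left.mp ((pResidual_sup_sylow (P.subtype hPV)).symm ▸ mem_top x)
  have hxs : π₀ x = π₀ s := by
    rw [← hes, map_mul, show π₀ e = 1 from (QuotientGroup.eq_one_iff e).mpr he, one_mul]
  have hsM : (s : G) ∈ M := by
    have he' : (e : G) ∈ M := map_pResidual_subtype_le V ⟨e, he, rfl⟩
    refine (mul_mem_cancel_left he').mp ?_
    simpa [← hes] using mem_subgroupOf.mp hx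
  have hsP : (s : G) ∈ (P : Subgroup G) := by simpa [Sylow.coe_subtype, mem_subgroupOf] using hs
  have hsG : (s : G) ∈ ⁅V, V⁆ := h ⟨hsP, (pResidual_inf_le_focal P).trans
    ((focalSubgroup_le_of_controlsFusion (V := ⊤) le_top fun a _ g _ => ⟨g, mem_top g, rfl⟩).trans
      (commutator_def G).ge) ⟨hsM, hsP⟩⟩
  have hsV : q (π₀ s) ∈ commutator ((V ⧸ pResidual p V) ⧸ N0) := by
    have h1 : s ∈ commutator V := by
      rw [← V.map_subtype_commutator] at hsG
      obtain ⟨t, ht, e⟩ := hsG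
      exact (Subtype.ext e : t = s) ▸ ht
    have h2 := mem_map_of_mem (q.comp π₀) h1
    rw [commutator_def, Subgroup.map_commutator] at h2
    rw [commutator_def]
    exact commutator_mono le_top le_top h2
  obtain ⟨g, hg⟩ := hR hsV
  have h1 : g = 1 := by
    rw [← hσ g, hg, show π' (q (π₀ s)) = φ (π₀ s) from rfl]
    exact hNφ (mem_map_of_mem π₀ (mem_subgroupOf.mpr hsM))
  rw [h1, map_one] at hg
  rw [hxs]
  exact (QuotientGroup.eq_one_iff _).mp hg.symm

/-- If `P ∩ G' ≤ V'` then `G` and `V` have isomorphic largest `p`-factor groups. -/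
theorem nonempty_mulEquiv_quotient_pResidual (P : Sylow p G) (V : Subgroup G) (hPV : (P : Subgroup G) ≤ V)
    (h : (P : Subgroup G) ⊓ commutator G ≤ ⁅V, V⁆) :
    Nonempty (G ⧸ pResidual p G ≃* V ⧸ pResidual p V) := by
  let φ : V ⧸ pResidual p V →* G ⧸ pResidual p G := QuotientGroup.lift _
    ((QuotientGroup.mk' _).comp V.subtype) (fun x hx =>
      (QuotientGroup.eq_one_iff _).mpr (map_pResidual_subtype_le V (mem_map_of_mem _ hx)))
  refine ⟨(MulEquiv.ofBijective φ ⟨?_, ?_⟩).symm⟩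
  · rw [injective_iff_map_eq_one]
    rintro ⟨y⟩ hy
    exact (QuotientGroup.eq_one_iff y).mpr (subgroupOf_pResidual_le P V hPV h
      (mem_subgroupOf.mpr ((QuotientGroup.eq_one_iff (y : G)).mp hy)))
  · rintro ⟨g⟩
    have hg : g ∈ pResidual p G ⊔ (P : Subgroup G) := (pResidual_sup_sylow P).symm ▸ mem_top g
    obtain ⟨m, hm, x, hx, rfl⟩ := mem_sup_of_normal_left.mp hg
    refine ⟨QuotientGroup.mk ⟨x, hPV hx⟩, ?_⟩
    show QuotientGroup.mk' _ x = QuotientGroup.mk' _ (m * x)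
    rw [map_mul, show QuotientGroup.mk' _ m = 1 from (QuotientGroup.eq_one_iff m).mpr hm, one_mul]

end Cfsg.Agent.Lib.KInf
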