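import Mathlib
import Cfsg.Prelude.Def_PLocal
import Cfsg.Agent.Lib.KInf.AbelianCubic
import Cfsg.Agent.Lib.KInf.BaerTrick
import Cfsg.Agent.Lib.KInf.LevelPairing
import Cfsg.Agent.Lib.LocalChar.Actions

/-!
Replacement of abelian subgroups of largest order inside a class two subgroup `Q` of `P` with `C_P(Q) ≤ Q`:
such a subgroup outside `P` meeting `Q` maximally acts with degree four on `Q / Z(Q)`.
-/

set_option autoImplicit false

open scoped commutatorElement

namespace Cfsg.Agent.Lib.KInf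

variable {X : Type*} [Group X]

lemma card_mul_relIndex {C B : Subgroup X} (hCB : C ≤ B) : Nat.card ↥C * C.relIndex B = Nat.card ↥B := by
  rw [← Subgroup.relIndex_bot_left, ← Subgroup.relIndex_bot_left]
  exact Subgroup.relIndex_mul_relIndex _ _ _ bot_le hCB

/-- An abelian subgroup of largest order outside `P` meeting `Q` maximally. -/
structure Repl (p : ℕ) (S P Q A : Subgroup X) : Prop where
  pgroup : IsPGroup p ↥S
  P_le : P ≤ S
  Q_le : Q ≤ P
  P_normal : P.Normal
  self_cent : P ⊓ Subgroup.centralizer (Q : Set X) ≤ Q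
  comm_le : ⁅P, Q⁆ ≤ Subgroup.centralizer (Q : Set X)
  maxAb : MaxAb S A
  not_le : ¬ A ≤ P
  inter_max : ∀ B : Subgroup X, MaxAb S B → ¬ B ≤ P →
    Nat.card ↥(B ⊓ Q : Subgroup X) ≤ Nat.card ↥(A ⊓ Q : Subgroup X)

variable {p : ℕ} {S P Q A : Subgroup X} [Q.Normal] [OddTwo ↥Q]

/-- The element of the ambient group. -/
def elt (w : Lin ↥Q) : X := (w.toG : X)

/-- The additive subgroup cut out by a subgroup. -/
noncomputable def cut (Q : Subgroup X) [OddTwo ↥Q] (H : Subgroup X) : AddSubgroup (Lin ↥Q) where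
  carrier := {w | elt w ∈ H}
  zero_mem' := H.one_mem
  neg_mem' {x} hx := by
    show ((x.toG⁻¹ : ↥Q) : X) ∈ H
    exact H.inv_mem hx
  add_mem' {x y} hx hy := by
    show ((x + y).toG : X) ∈ H
    rw [Lin.toG_add, Lin.hf, Subgroup.coe_mul, Subgroup.coe_mul, SubmonoidClass.coe_pow,
      show ((⁅y.toG, x.toG⁆ : ↥Q) : X) = ⁅elt y, elt x⁆ from map_commutatorElement Q.subtype _ _]
    refine H.mul_mem (H.mul_mem hx hy) (H.pow_mem ?_ _)
    rw [commutatorElement_def]
    exact H.mul_mem (H.mul_mem (H.mul_mem hy hx) (H.inv_mem hy)) (H.inv_mem hx)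

omit [Q.Normal] in
lemma mem_cut {H : Subgroup X} {w : Lin ↥Q} : w ∈ cut Q H ↔ elt w ∈ H := Iff.rfl

/-- The action of `A` on the abelian group attached to `Q`. -/
noncomputable def act (A Q : Subgroup X) [Q.Normal] [OddTwo ↥Q] : ↥A →* AddMonoid.End (Lin ↥Q) :=
  Lin.mapEnd.comp ((MulAut.conjNormal (H := Q)).comp A.subtype)

lemma elt_act (a : ↥A) (w : Lin ↥Q) : elt (act A Q a w) = a * elt w * (a : X)⁻¹ := rfl

omit [Q.Normal] in
lemma elt_mem (w : Lin ↥Q) : elt w ∈ Q := w.toG.2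

omit [Q.Normal] [OddTwo ↥Q] in
lemma elt_injective : Function.Injective (elt (Q := Q)) := fun _ _ h => Lin.ext (Subtype.ext h)

omit [Q.Normal] in
lemma elt_zero : elt (0 : Lin ↥Q) = 1 := rfl

omit [Q.Normal] in
lemma elt_add_of_comm {x y : Lin ↥Q} (h : Lin.beta y x = 0) : elt (x + y) = elt x * elt y := by
  show ((x + y).toG : X) = _
  rw [Lin.toG_add_of_comm h]; rfl

omit [Q.Normal] in
lemma elt_beta (x y : Lin ↥Q) : elt (Lin.beta x y) = ⁅elt x, elt y⁆ :=
  map_commutatorElement Q.subtype x.toG y.toG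

omit [Q.Normal] in
lemma beta_eq_zero_iff {x y : Lin ↥Q} : Lin.beta x y = 0 ↔ Commute (elt x) (elt y) := by
  rw [← commutatorElement_eq_one_iff_commute, ← elt_beta]
  exact ⟨fun h => by rw [h, elt_zero], fun h => elt_injective (h.trans elt_zero.symm)⟩

lemma del_eq_zero_iff {a : ↥A} {w : Lin ↥Q} : del (act A Q) a w = 0 ↔ Commute (a : X) (elt w) := by
  rw [del_apply, sub_eq_zero, commute_iff_eq, ← mul_inv_eq_iff_eq_mul (b := (a : X)), ← elt_act]
  exact ⟨fun h => by rw [h], fun h => elt_injective h⟩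

lemma act_mem_cut {H : Subgroup X} (hH : A ≤ Subgroup.normalizer (H : Set X)) (a : ↥A) {w : Lin ↥Q}
    (hw : w ∈ cut Q H) : act A Q a w ∈ cut Q H := by
  rw [mem_cut, elt_act]
  exact (Subgroup.mem_normalizer_iff.1 (hH a.2) _).1 hw

lemma del_mem_cut {H : Subgroup X} (hH : A ≤ Subgroup.normalizer (H : Set X)) (a : ↥A) {w : Lin ↥Q}
    (hw : w ∈ cut Q H) : del (act A Q) a w ∈ cut Q H := by
  rw [del_apply]; exact sub_mem (act_mem_cut hH a hw) hw

/-- The centraliser in `A` of the first differences of `y`. -/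
noncomputable def cen (A : Subgroup X) (y : Lin ↥Q) : Subgroup X :=
  A ⊓ Subgroup.centralizer (Set.range fun a : ↥A => elt (del (act A Q) a y))

/-- Its differences pairwise commute and commute with `A ∩ Q`. -/
def Good (A : Subgroup X) (y : Lin ↥Q) : Prop :=
  (∀ a b : ↥A, Lin.beta (del (act A Q) a y) (del (act A Q) b y) = 0) ∧
    ∀ f ∈ cut Q A, ∀ a : ↥A, Lin.beta f (del (act A Q) a y) = 0

lemma mem_cen {y : Lin ↥Q} {c : X} :
    c ∈ cen A y ↔ ∃ hc : c ∈ A, ∀ a : ↥A, del (act A Q) ⟨c, hc⟩ (del (act A Q) a y) = 0 := by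
  rw [cen, Subgroup.mem_inf, Subgroup.mem_centralizer_iff]
  constructor
  · exact fun h => ⟨h.1, fun a => del_eq_zero_iff.2 (h.2 _ ⟨a, rfl⟩).symm⟩
  · rintro ⟨hc, h⟩
    exact ⟨hc, by rintro _ ⟨a, rfl⟩; exact (del_eq_zero_iff.1 (h a)).symm⟩

lemma elt_hf (x y : Lin ↥Q) {H : Subgroup X} (h : ⁅elt x, elt y⁆ ∈ H) :
    (⟨Lin.hf ⁅x.toG, y.toG⁆⟩ : Lin ↥Q) ∈ cut Q H := by
  rw [mem_cut]
  show ((Lin.hf ⁅x.toG, y.toG⁆ : ↥Q) : X) ∈ H
  rw [Lin.hf, SubmonoidClass.coe_pow, show ((⁅x.toG, y.toG⁆ : ↥Q) : X) = ⁅elt x, elt y⁆ from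
    map_commutatorElement Q.subtype _ _]
  exact H.pow_mem h _

namespace Repl

variable (h : Repl p S P Q A)
include h

omit [Q.Normal] [OddTwo ↥Q] in
lemma A_le_normalizer_P : A ≤ Subgroup.normalizer (P : Set X) := by
  haveI := h.P_normal
  rw [Subgroup.normalizer_eq_top]; exact le_top

lemma act_comm (g k : ↥A) (x : Lin ↥Q) : act A Q g (act A Q k x) = act A Q k (act A Q g x) := by
  show (act A Q g * act A Q k) x = (act A Q k * act A Q g) x
  rw [← map_mul, ← map_mul, show g * k = k * g from Subtype.ext (h.maxAb.comm g g.2 k k.2)]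

lemma dcomm (g k : ↥A) (x : Lin ↥Q) :
    del (act A Q) g (del (act A Q) k x) = del (act A Q) k (del (act A Q) g x) :=
  del_comm _ h.act_comm g k x

omit [Q.Normal] [OddTwo ↥Q] in
lemma comm_QQ : ⁅Q, Q⁆ ≤ Subgroup.centralizer (P : Set X) := by
  have h0 : ⁅⁅P, Q⁆, Q⁆ = ⊥ := (Subgroup.commutator_eq_bot_iff_le_centralizer).2 h.comm_le
  rw [← Subgroup.commutator_eq_bot_iff_le_centralizer]
  refine Subgroup.commutator_commutator_eq_bot_of_rotate ?_ h0
  rwa [Subgroup.commutator_comm Q P]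

omit [Q.Normal] in
lemma beta_mem (x y : Lin ↥Q) : Lin.beta x y ∈ cut Q (Subgroup.centralizer (P : Set X)) := by
  rw [mem_cut, elt_beta]
  exact h.comm_QQ (Subgroup.commutator_mem_commutator (elt_mem x) (elt_mem y))

omit [Q.Normal] in
lemma centP_le_centQ : cut Q (Subgroup.centralizer (P : Set X)) ≤ cut Q (Subgroup.centralizer (Q : Set X)) :=
  fun _ hw => Subgroup.centralizer_le (SetLike.coe_subset_coe.2 h.Q_le) hw

omit h [Q.Normal] in
lemma rad_centQ (x : Lin ↥Q) {k : Lin ↥Q} (hk : k ∈ cut Q (Subgroup.centralizer (Q : Set X))) :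
    Lin.beta x k = 0 :=
  beta_eq_zero_iff.2 (Subgroup.mem_centralizer_iff.1 hk _ (elt_mem x))

omit h in
lemma centQ_inv : A ≤ Subgroup.normalizer ((Subgroup.centralizer (Q : Set X) : Subgroup X) : Set X) := by
  rw [Subgroup.normalizer_eq_top]; exact le_top

omit [Q.Normal] [OddTwo ↥Q] in
lemma centP_inv : A ≤ Subgroup.normalizer ((Subgroup.centralizer (P : Set X) : Subgroup X) : Set X) := by
  haveI := h.P_normal
  rw [Subgroup.normalizer_eq_top]; exact le_top

omit [Q.Normal] [OddTwo ↥Q] in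
lemma mem_A_of_commute [Finite X] {x : X} (hx : x ∈ S) (hc : ∀ a ∈ A, Commute a x) : x ∈ A := by
  have hstab : A ⊔ Subgroup.zpowers x ≤ Subgroup.centralizer ((A ⊔ Subgroup.zpowers x : Subgroup X) : Set X) := by
    have hxA : Subgroup.zpowers x ≤ Subgroup.centralizer (A : Set X) :=
      Subgroup.zpowers_le.2 fun a ha => (hc a ha).eq
    refine sup_le (Subgroup.le_centralizer_iff.1 (sup_le ?_ hxA))
      (Subgroup.le_centralizer_iff.1 (sup_le ?_ ?_))
    · exact fun a ha b hb => h.maxAb.comm b hb a ha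
    · exact Subgroup.le_centralizer_iff.1 hxA
    · exact Subgroup.le_centralizer_iff_isMulCommutative.2 inferInstance
  have h1 := h.maxAb.max _ (sup_le h.maxAb.le (Subgroup.zpowers_le.2 hx)) fun a ha b hb => hstab hb a ha
  exact (Subgroup.eq_of_le_of_card_ge le_sup_left h1).ge (Subgroup.mem_sup_right (Subgroup.mem_zpowers x))

lemma mem_cut_A [Finite X] {w : Lin ↥Q} (hw : ∀ a, del (act A Q) a w = 0) : w ∈ cut Q A :=
  h.mem_A_of_commute (h.P_le (h.Q_le (elt_mem w))) fun a ha => del_eq_zero_iff.1 (hw ⟨a, ha⟩)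

lemma del_fixed {f : Lin ↥Q} (hf : f ∈ cut Q A) (a : ↥A) : del (act A Q) a f = 0 :=
  del_eq_zero_iff.2 (h.maxAb.comm a a.2 _ hf)

/-- An element of `A ∩ Q` acts through the pairing. -/
lemma del_inner {a : ↥A} {f : Lin ↥Q} (hf : (a : X) = elt f) (w : Lin ↥Q) :
    del (act A Q) a w = Lin.beta f w := by
  rw [del_apply, sub_eq_iff_eq_add]
  apply elt_injective
  rw [elt_act, elt_add_of_comm (rad_centQ w (h.centP_le_centQ (h.beta_mem f w))), elt_beta, hf,
    commutatorElement_def, inv_mul_cancel_right]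

lemma mem_cen_iff [Finite X] {y : Lin ↥Q} (a : ↥A) : (a : X) ∈ cen A y ↔ del (act A Q) a y ∈ cut Q A := by
  rw [mem_cen]
  refine ⟨fun ⟨_, hc⟩ => h.mem_cut_A fun b => ?_, fun hy => ⟨a.2, fun b => ?_⟩⟩
  · rw [h.dcomm]; exact hc b
  · show del (act A Q) a _ = 0
    rw [h.dcomm]; exact h.del_fixed hy b

lemma sub_mem_iff [Finite X] {y : Lin ↥Q} (u v : ↥A) :
    del (act A Q) v y - del (act A Q) u y ∈ cut Q A ↔ ((u⁻¹ * v : ↥A) : X) ∈ cen A y := by
  rw [h.mem_cen_iff]
  have e : del (act A Q) (u⁻¹ * v) y = act A Q u⁻¹ (del (act A Q) v y - del (act A Q) u y) := by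
    simp only [del_apply, map_sub]
    rw [rho_inv_rho, map_mul]
    show act A Q u⁻¹ (act A Q v y) - y = _
    abel
  have hAn : A ≤ Subgroup.normalizer (A : Set X) := Subgroup.le_normalizer
  rw [e]
  refine ⟨fun hm => act_mem_cut hAn _ hm, fun hm => ?_⟩
  have := act_mem_cut hAn u hm
  rwa [rho_rho_inv] at this

omit [Q.Normal] [OddTwo ↥Q] in
lemma abelian_closure_card {T : Set X} (hT : T ⊆ S) (hc : ∀ s ∈ T, ∀ t ∈ T, Commute s t) :
    Subgroup.closure T ≤ S ∧ (∀ s ∈ Subgroup.closure T, ∀ t ∈ Subgroup.closure T, s * t = t * s) ∧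
      Nat.card ↥(Subgroup.closure T) ≤ Nat.card ↥A := by
  have h1 : Subgroup.closure T ≤ S := (Subgroup.closure_le _).2 hT
  have h0 : T ⊆ Subgroup.centralizer (T : Set X) := fun s hs t ht => (hc t ht s hs).eq
  have h2 : Subgroup.closure T ≤ Subgroup.centralizer ((Subgroup.closure T : Subgroup X) : Set X) := by
    rw [Subgroup.centralizer_closure]; exact (Subgroup.closure_le _).2 h0
  exact ⟨h1, fun s hs t ht => h2 ht s hs, h.maxAb.max _ h1 fun s hs t ht => h2 ht s hs⟩

omit [Q.Normal] [OddTwo ↥Q] in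
lemma card_quotient_le [Finite X] {B C : Subgroup X} (hCA : C ≤ A) (hCB : C ≤ B)
    (hB : Nat.card ↥B ≤ Nat.card ↥A) : C.relIndex B ≤ C.relIndex A := by
  refine Nat.le_of_mul_le_mul_left ?_ (Nat.card_pos (α := ↥C))
  rwa [card_mul_relIndex hCA, card_mul_relIndex hCB]

/-- Replacement: every element of an isotropic subgroup centralised by `cen A y` is a difference of `y`
modulo `A`. -/
theorem exists_del_eq [Finite X] {y : Lin ↥Q} {U : AddSubgroup (Lin ↥Q)}
    (hiso : ∀ u ∈ U, ∀ v ∈ U, Lin.beta u v = 0) (hU : ∀ a, del (act A Q) a y ∈ U)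
    (hcen : ∀ c ∈ cen A y, ∀ u ∈ U, Commute c (elt u)) :
    (∀ u ∈ U, ∃ a, u - del (act A Q) a y ∈ cut Q A) ∧
      ((∀ f ∈ cut Q A, elt f ∈ cen A y) → (∃ u ∈ U, u ∉ cut Q A) → cen A y ≤ P) := by
  classical
  set C := cen A y with hC
  have hCA : C ≤ A := inf_le_left
  set T : Set X := (C : Set X) ∪ elt '' (U : Set (Lin ↥Q)) with hT
  obtain ⟨hBS, hBc, hBA⟩ := h.abelian_closure_card (T := T) (by
      rintro x (hx | ⟨u, -, rfl⟩)
      · exact h.maxAb.le (hCA hx)
      · exact h.P_le (h.Q_le (elt_mem u))) (by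
      rintro s (hs | ⟨u, hu, rfl⟩) t (ht | ⟨v, hv, rfl⟩)
      · exact h.maxAb.comm s (hCA hs) t (hCA ht)
      · exact hcen s hs v hv
      · exact (hcen t ht u hu).symm
      · exact beta_eq_zero_iff.1 (hiso u hu v hv))
  set B := Subgroup.closure T with hB
  have hCB : C ≤ B := fun c hc => Subgroup.subset_closure (Or.inl hc)
  have hUB : ∀ u ∈ U, elt u ∈ B := fun u hu => Subgroup.subset_closure (Or.inr ⟨u, hu, rfl⟩)
  have key : ∀ u ∈ U, ∀ v ∈ U, (elt u)⁻¹ * elt v ∈ A → v - u ∈ cut Q A := by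
    intro u hu v hv huv
    rw [mem_cut, sub_eq_neg_add, elt_add_of_comm (hiso v hv _ (U.neg_mem hu))]
    exact huv
  let f : ↥A ⧸ C.subgroupOf A → ↥B ⧸ C.subgroupOf B := fun q =>
    QuotientGroup.mk ⟨elt (del (act A Q) (Quotient.out q) y), hUB _ (hU _)⟩
  have hf : Function.Injective f := by
    intro q r hqr
    rw [← QuotientGroup.out_eq' q, ← QuotientGroup.out_eq' r]
    refine QuotientGroup.eq.2 ?_
    have hz := Subgroup.mem_subgroupOf.1 (QuotientGroup.eq.1 hqr)
    simp only [Subgroup.coe_mul, Subgroup.coe_inv] at hz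
    rw [Subgroup.mem_subgroupOf]
    exact (h.sub_mem_iff _ _).1 (key _ (hU _) _ (hU _) (hCA hz))
  have hle : C.relIndex B ≤ C.relIndex A := h.card_quotient_le hCA hCB hBA
  refine ⟨fun u hu => ?_, fun hF ⟨u, hu, hu'⟩ => ?_⟩
  · obtain ⟨q, hq⟩ := (hf.bijective_of_nat_card_le hle).2 (QuotientGroup.mk ⟨elt u, hUB u hu⟩)
    have hz := Subgroup.mem_subgroupOf.1 (QuotientGroup.eq.1 hq)
    simp only [Subgroup.coe_mul, Subgroup.coe_inv] at hz
    exact ⟨Quotient.out q, key _ (hU _) u hu (hCA hz)⟩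
  · by_contra hCP
    have hge : Nat.card ↥A ≤ Nat.card ↥B := by
      rw [← card_mul_relIndex hCA, ← card_mul_relIndex hCB]
      exact Nat.mul_le_mul_left _ (Nat.card_le_card_of_injective f hf)
    have hBmax : MaxAb S B := ⟨hBS, hBc, fun D hD hDc => (h.maxAb.max D hD hDc).trans hge⟩
    have h1 := h.inter_max B hBmax fun hBP => hCP (hCB.trans hBP)
    have hsub : A ⊓ Q ≤ B ⊓ Q := fun x hx => ⟨hCB (hF ⟨⟨x, hx.2⟩⟩ hx.1), hx.2⟩
    exact hu' (((Subgroup.eq_of_le_of_card_ge hsub h1).ge ⟨hUB u hu, elt_mem u⟩).1)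

omit h in
lemma good_closure {y : Lin ↥Q} (hy : Good A y) :
    ∀ u ∈ AddSubgroup.closure (Set.range fun a : ↥A => del (act A Q) a y),
      ∀ v ∈ AddSubgroup.closure (Set.range fun a : ↥A => del (act A Q) a y), Lin.beta u v = 0 := by
  intro u hu
  induction hu using AddSubgroup.closure_induction with
  | mem _ hu =>
    obtain ⟨a, rfl⟩ := hu
    intro v hv
    induction hv using AddSubgroup.closure_induction with
    | mem _ hv => obtain ⟨b, rfl⟩ := hv; exact hy.1 a b
    | zero => simp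
    | add _ _ _ _ h1 h2 => simp [h1, h2]
    | neg _ _ h1 => simp [h1]
  | zero => simp
  | add _ _ _ _ h1 h2 => intro v hv; simp [h1 v hv, h2 v hv]
  | neg _ _ h1 => intro v hv; simp [h1 v hv]

lemma cen_commute {y : Lin ↥Q} {c : X} (hc : c ∈ cen A y) {u : Lin ↥Q}
    (hu : u ∈ AddSubgroup.closure (Set.range fun a : ↥A => del (act A Q) a y)) : Commute c (elt u) := by
  obtain ⟨hcA, hc⟩ := mem_cen.1 hc
  refine (del_eq_zero_iff (a := (⟨c, hcA⟩ : ↥A))).1 ?_
  induction hu using AddSubgroup.closure_induction with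
  | mem _ hu => obtain ⟨a, rfl⟩ := hu; exact hc a
  | zero => simp
  | add _ _ _ _ h1 h2 => simp [h1, h2]
  | neg _ _ h1 => simp [h1]

lemma fixed_mem_cen [Finite X] {y : Lin ↥Q} (hy : Good A y) {f : Lin ↥Q} (hf : f ∈ cut Q A) :
    elt f ∈ cen A y := by
  refine mem_cen.2 ⟨hf, fun b => ?_⟩
  rw [h.del_inner (a := (⟨elt f, hf⟩ : ↥A)) rfl]
  exact hy.2 f hf b

/-- For a good `y` all of the span of its differences consists of differences modulo `A`. -/
theorem good_exists [Finite X] {y : Lin ↥Q} (hy : Good A y) {u : Lin ↥Q}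
    (hu : u ∈ AddSubgroup.closure (Set.range fun a : ↥A => del (act A Q) a y)) :
    ∃ a, u - del (act A Q) a y ∈ cut Q A :=
  (h.exists_del_eq (good_closure hy) (fun a => AddSubgroup.subset_closure ⟨a, rfl⟩)
    (fun _ hc _ hu => h.cen_commute hc hu)).1 u hu

theorem good_le [Finite X] {y : Lin ↥Q} (hy : Good A y) {a : ↥A} (ha : del (act A Q) a y ∉ cut Q A) :
    cen A y ≤ P :=
  (h.exists_del_eq (good_closure hy) (fun a => AddSubgroup.subset_closure ⟨a, rfl⟩)
    (fun _ hc _ hu => h.cen_commute hc hu)).2 (fun _ hf => h.fixed_mem_cen hy hf)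
    ⟨_, AddSubgroup.subset_closure ⟨a, rfl⟩, ha⟩

lemma good_of_centQ {y : Lin ↥Q} (hy : y ∈ cut Q (Subgroup.centralizer (Q : Set X))) : Good A y :=
  ⟨fun _ b => rad_centQ _ (del_mem_cut centQ_inv b hy), fun _ _ b => rad_centQ _ (del_mem_cut centQ_inv b hy)⟩

lemma lev_le_iter (j : ℕ) : lev (act A Q) ⊤ j ≤ cut Q (Cfsg.iterCommutator Q A j) := by
  induction j with
  | zero => exact fun w _ => elt_mem w
  | succ j ih =>
    refine lev_succ_le_iff.2 fun a x hx => ?_
    have hx' : elt x ∈ Cfsg.iterCommutator Q A j := ih hx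
    set T := Cfsg.iterCommutator Q A (j + 1) with hTdef
    have hc : ⁅(a : X), elt x⁆ ∈ T := by
      rw [← commutatorElement_inv]
      exact T.inv_mem (Subgroup.commutator_mem_commutator hx' a.2)
    have hn : elt x ∈ Subgroup.normalizer (T : Set X) :=
      Cfsg.Agent.Lib.LocalChar.left_le_nz_commutator _ A hx'
    rw [mem_cut]
    show ((act A Q a x - x).toG : X) ∈ T
    rw [sub_eq_add_neg, Lin.toG_add, Lin.hf, Subgroup.coe_mul, Subgroup.coe_mul, SubmonoidClass.coe_pow,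
      show ((⁅(-x).toG, (act A Q a x).toG⁆ : ↥Q) : X) = ⁅elt (-x), elt (act A Q a x)⁆ from
        map_commutatorElement Q.subtype _ _,
      show ((act A Q a x).toG : X) = elt (act A Q a x) from rfl, elt_act,
      show elt (-x) = (elt x)⁻¹ from rfl, show (((-x).toG : ↥Q) : X) = (elt x)⁻¹ from rfl]
    refine T.mul_mem hc (T.pow_mem ?_ _)
    have e : ⁅(elt x)⁻¹, (a : X) * elt x * (a : X)⁻¹⁆ =
        (elt x)⁻¹ * ⁅(a : X), elt x⁆ * (elt x)⁻¹⁻¹ * ⁅(a : X), elt x⁆⁻¹ := by
      simp only [commutatorElement_def]; group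
    rw [e]
    exact T.mul_mem ((Subgroup.mem_normalizer_iff.1 (Subgroup.inv_mem _ hn) _).1 hc) (T.inv_mem hc)

lemma exists_lev_eq_bot [Finite X] [Fact p.Prime] : ∃ n, lev (act A Q) ⊤ n = ⊥ := by
  obtain ⟨n, hn⟩ := Cfsg.Agent.Lib.LocalChar.exists_iter_eq_bot h.pgroup (h.Q_le.trans h.P_le) h.maxAb.le
  refine ⟨n, le_bot_iff.1 fun w hw => ?_⟩
  have := h.lev_le_iter n hw
  rw [mem_cut, hn, Subgroup.mem_bot] at this
  exact elt_injective (this.trans elt_zero.symm)

/-- `A` acts quadratically on `Q ∩ C(P)`. -/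
theorem quad_center [Finite X] [Fact p.Prime] {z : Lin ↥Q}
    (hz : z ∈ cut Q (Subgroup.centralizer (P : Set X))) (g k : ↥A) :
    del (act A Q) g (del (act A Q) k z) = 0 := by
  by_cases hall : ∀ a, del (act A Q) a z ∈ cut Q A
  · exact h.del_fixed (hall k) g
  push Not at hall
  obtain ⟨a, ha⟩ := hall
  have hgood := h.good_of_centQ (h.centP_le_centQ hz)
  have hCP := h.good_le hgood ha
  obtain ⟨b, hb⟩ := (h.exists_del_eq (U := cut Q (Subgroup.centralizer (P : Set X)))
    (fun u _ v hv => rad_centQ u (h.centP_le_centQ hv)) (fun c => del_mem_cut h.centP_inv c hz)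
    (fun c hc u hu => Subgroup.mem_centralizer_iff.1 hu c (hCP hc))).1 z hz
  exfalso
  apply ha
  have hfix : del (act A Q) a z = del (act A Q) b (del (act A Q) a z) := by
    have h1 := h.del_fixed hb a
    rw [map_sub, sub_eq_zero] at h1
    rwa [h.dcomm a b] at h1
  have hall : ∀ j, del (act A Q) a z ∈ lev (act A Q) ⊤ j := by
    intro j
    induction j with
    | zero => exact AddSubgroup.mem_top _
    | succ j ih => rw [hfix]; exact del_mem_lev b ih
  obtain ⟨n, hn⟩ := h.exists_lev_eq_bot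
  have h0 := hall n
  rw [hn, AddSubgroup.mem_bot] at h0
  rw [h0]; exact zero_mem _

lemma pairing [Finite X] [Fact p.Prime] :
    Pairing (act A Q) Lin.beta (cut Q (Subgroup.centralizer (Q : Set X))) where
  comm := h.act_comm
  equiv g x y := Lin.ext (map_commutatorElement (MulAut.conjNormal (H := Q) (g : X)) x.toG y.toG)
  self := Lin.beta_self
  rad x _ hk := rad_centQ x hk
  quad g k x y := h.quad_center (h.beta_mem x y) g k
  tor _ hx := Lin.eq_zero_of_add_self hx

/-- The orbit span of `y`. -/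
noncomputable def orb (A : Subgroup X) (y : Lin ↥Q) : AddSubgroup (Lin ↥Q) :=
  AddSubgroup.closure (Set.range fun a : ↥A => act A Q a y)

omit h in
lemma orb_inv {y : Lin ↥Q} : ∀ g : ↥A, ∀ x ∈ orb A y, act A Q g x ∈ orb A y := by
  intro g x hx
  induction hx using AddSubgroup.closure_induction with
  | mem _ hx =>
    obtain ⟨a, rfl⟩ := hx
    refine AddSubgroup.subset_closure ⟨g * a, ?_⟩
    show act A Q (g * a) y = _
    rw [map_mul]; rfl
  | zero => simp
  | add _ _ _ _ h1 h2 => rw [map_add]; exact add_mem h1 h2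
  | neg _ _ h1 => rw [map_neg]; exact neg_mem h1

omit h in
lemma mem_orb (y : Lin ↥Q) : y ∈ orb A y :=
  AddSubgroup.subset_closure ⟨1, by show act A Q 1 y = y; rw [map_one]; rfl⟩

omit h in
lemma orb_le {y : Lin ↥Q} {U : AddSubgroup (Lin ↥Q)} (hU : ∀ g : ↥A, ∀ x ∈ U, act A Q g x ∈ U) (hy : y ∈ U) :
    orb A y ≤ U :=
  (AddSubgroup.closure_le _).2 (by rintro _ ⟨a, rfl⟩; exact hU a y hy)

/-- An element moving the second differences two levels down lies in `P`. -/
theorem mem_P_of_shift [Finite X] [Fact p.Prime] {y : Lin ↥Q}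
    (hY : ∀ x ∈ lev (act A Q) (orb A y) 1, Good A x) {b : ↥A}
    (h2 : ∀ a c, del (act A Q) b (del (act A Q) a (del (act A Q) c y)) ∈ lev (act A Q) (orb A y) 4)
    (hne : ∃ a c, del (act A Q) a (del (act A Q) c y) ∉ cut Q A) : (b : X) ∈ P := by
  classical
  set L := lev (act A Q) (orb A y) with hL
  have hc1 : ∀ a, ∀ x ∈ L 1, del (act A Q) b (del (act A Q) a x) ∈ L 4 := by
    intro a x hx
    induction hx using AddSubgroup.closure_induction with
    | mem _ hx =>
      obtain ⟨c, x, hx, rfl⟩ := hx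
      induction hx using AddSubgroup.closure_induction with
      | mem _ hx =>
        obtain ⟨d, rfl⟩ := hx
        simp only [del_rho_comm _ h.act_comm]
        exact rho_mem_lev orb_inv d (h2 a c)
      | zero => simp
      | add _ _ _ _ h1 h2 => simp only [map_add]; exact add_mem h1 h2
      | neg _ _ h1 => simp only [map_neg]; exact neg_mem h1
    | zero => simp
    | add _ _ _ _ h1 h2 => simp only [map_add]; exact add_mem h1 h2
    | neg _ _ h1 => simp only [map_neg]; exact neg_mem h1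
  have hshift : ∀ j, ∀ x ∈ L (j + 2), del (act A Q) b x ∈ L (j + 4) := by
    intro j
    induction j with
    | zero =>
      intro x hx
      induction hx using AddSubgroup.closure_induction with
      | mem _ hx => obtain ⟨a, x, hx, rfl⟩ := hx; exact hc1 a x hx
      | zero => simp
      | add _ _ _ _ h1 h2 => simp only [map_add]; exact add_mem h1 h2
      | neg _ _ h1 => simp only [map_neg]; exact neg_mem h1
    | succ j ih =>
      intro x hx
      induction hx using AddSubgroup.closure_induction with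
      | mem _ hx =>
        obtain ⟨a, x, hx, rfl⟩ := hx
        rw [h.dcomm b a]
        exact del_mem_lev a (ih x hx)
      | zero => simp
      | add _ _ _ _ h1 h2 => simp only [map_add]; exact add_mem h1 h2
      | neg _ _ h1 => simp only [map_neg]; exact neg_mem h1
  obtain ⟨n, hn⟩ := h.exists_lev_eq_bot
  have hex : ∃ j, L (j + 2) ≤ cut Q A := ⟨n, fun x hx => by
    have h1 := lev_mono (ρ := act A Q) (le_top : orb A y ≤ ⊤) _ (lev_le_of_le orb_inv (Nat.le_add_right n 2) hx)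
    rw [hn, AddSubgroup.mem_bot] at h1
    rw [h1]; exact zero_mem _⟩
  obtain ⟨a, c, hac⟩ := hne
  have hL2 : ¬ L 2 ≤ cut Q A := fun hh => hac (hh (del_mem_lev a (del_mem_lev c (mem_orb y))))
  obtain ⟨j, hj⟩ : ∃ j, Nat.find hex = j + 1 :=
    ⟨Nat.find hex - 1, (Nat.succ_pred_eq_of_pos (Nat.pos_of_ne_zero fun e => hL2 (by
      simpa [e] using Nat.find_spec hex))).symm⟩
  have hnot : ¬ L (j + 2) ≤ cut Q A := Nat.find_min hex (by omega)
  have hfix : L (j + 3) ≤ cut Q A := by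
    have := Nat.find_spec hex
    rwa [hj] at this
  obtain ⟨a, x, hx, hax⟩ : ∃ a, ∃ x ∈ L (j + 1), del (act A Q) a x ∉ cut Q A := by
    by_contra hcon
    push Not at hcon
    exact hnot (lev_succ_le_iff.2 hcon)
  have hxG : Good A x := hY x (lev_le_of_le orb_inv (Nat.le_add_left 1 j) hx)
  refine h.good_le hxG hax (mem_cen.2 ⟨b.2, fun d => ?_⟩)
  have h4 : del (act A Q) b (del (act A Q) d x) ∈ L (j + 4) := hshift j _ (del_mem_lev d hx)
  have h5 : L (j + 4) ≤ ⊥ := lev_succ_le_iff.2 fun g z hz => by rw [h.del_fixed (hfix hz)]; exact zero_mem _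
  exact AddSubgroup.mem_bot.1 (h5 h4)

lemma del_mem_centQ {b : ↥A} (hb : (b : X) ∈ P) (w : Lin ↥Q) :
    del (act A Q) b w ∈ cut Q (Subgroup.centralizer (Q : Set X)) := by
  rw [mem_cut]
  show ((act A Q b w - w).toG : X) ∈ _
  rw [sub_eq_add_neg, Lin.toG_add, Subgroup.coe_mul, Subgroup.coe_mul]
  refine Subgroup.mul_mem _ (h.comm_le (Subgroup.commutator_mem_commutator hb (elt_mem w))) ?_
  rw [Lin.hf, SubmonoidClass.coe_pow]
  refine Subgroup.pow_mem _ (Subgroup.centralizer_le (SetLike.coe_subset_coe.2 h.Q_le) ?_) _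
  rw [show ((⁅(-w).toG, (act A Q b w).toG⁆ : ↥Q) : X) = ⁅elt (-w), elt (act A Q b w)⁆ from
    map_commutatorElement Q.subtype _ _]
  exact h.comm_QQ (Subgroup.commutator_mem_commutator (elt_mem _) (elt_mem _))

/-- Cubic action on the centre of `Q` modulo anything containing the commutators with `P`. -/
theorem cubic [Finite X] [Fact p.Prime] {y : Lin ↥Q} (hy : y ∈ cut Q (Subgroup.centralizer (Q : Set X)))
    {V : Subgroup X} (hV : A ≤ Subgroup.normalizer (V : Set X)) (hyV : ∀ b ∈ P, ⁅b, elt y⁆ ∈ V)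
    (l g k : ↥A) : del (act A Q) l (del (act A Q) g (del (act A Q) k y)) ∈ cut Q V := by
  by_cases hm : del (act A Q) g (del (act A Q) k y) ∈ cut Q A
  · rw [h.del_fixed hm]; exact zero_mem _
  obtain ⟨m, hmdef⟩ : ∃ m, del (act A Q) g (del (act A Q) k y) = m := ⟨_, rfl⟩
  have horb : orb A y ≤ cut Q (Subgroup.centralizer (Q : Set X)) :=
    orb_le (fun a x hx => act_mem_cut centQ_inv a hx) hy
  have hspan : m ∈ AddSubgroup.closure (Set.range fun a : ↥A => del (act A Q) a y) := by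
    rw [← hmdef]
    have e := del_mul (act A Q) g k y
    rw [add_assoc] at e
    rw [eq_sub_of_add_eq e.symm]
    exact sub_mem (AddSubgroup.subset_closure ⟨g * k, rfl⟩)
      (add_mem (AddSubgroup.subset_closure ⟨g, rfl⟩) (AddSubgroup.subset_closure ⟨k, rfl⟩))
  obtain ⟨b, hb⟩ := h.good_exists (h.good_of_centQ hy) hspan
  have hbP : (b : X) ∈ P := by
    refine h.mem_P_of_shift (fun x hx => h.good_of_centQ (horb (lev_anti orb_inv 0 hx))) (fun a c => ?_)
      ⟨g, k, hm⟩
    have h1 : del (act A Q) a (del (act A Q) c (m - del (act A Q) b y)) = 0 := by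
      rw [h.del_fixed hb, map_zero]
    rw [map_sub, map_sub, sub_eq_zero] at h1
    rw [h.dcomm b a, h.dcomm b c, ← h1, ← hmdef]
    exact del_mem_lev a (del_mem_lev c (del_mem_lev g (del_mem_lev k (mem_orb y))))
  have h2 : del (act A Q) l (m - del (act A Q) b y) = 0 := h.del_fixed hb l
  rw [map_sub, sub_eq_zero] at h2
  rw [hmdef, h2]
  refine del_mem_cut hV l ?_
  rw [mem_cut, del_apply, sub_eq_add_neg, elt_add_of_comm (rad_centQ _ (act_mem_cut centQ_inv b hy)), elt_act,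
    show elt (-y) = (elt y)⁻¹ from rfl]
  exact hyV b hbP

/-- Twisted replacement: the key step for degree four. -/
theorem del_del_mem [Finite X] [Fact p.Prime] {m : ℕ}
    (hn : lev (act A Q) ⊤ (m + 5) ≤ cut Q (Subgroup.centralizer (Q : Set X))) {u : Lin ↥Q}
    (hu : u ∈ lev (act A Q) ⊤ m) (a g₀ k₀ : ↥A) :
    del (act A Q) g₀ (del (act A Q) k₀ (del (act A Q) a u)) ∈
      cut Q (Subgroup.centralizer (Q : Set X)) ⊔ cut Q A := by
  classical
  by_contra hcon
  have hPr := h.pairing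
  obtain ⟨Nw, hNw⟩ : ∃ N, N = cut Q (Subgroup.centralizer (P : Set X)) := ⟨_, rfl⟩
  obtain ⟨y, hy⟩ : ∃ y, y = del (act A Q) a u := ⟨_, rfl⟩
  rw [← hy] at hcon
  obtain ⟨mm, hmm⟩ : ∃ x, x = del (act A Q) g₀ (del (act A Q) k₀ y) := ⟨_, rfl⟩
  rw [← hmm] at hcon
  have hyJ : y ∈ lev (act A Q) ⊤ (m + 1) := hy ▸ del_mem_lev a hu
  have hJ1 : ∀ e, del (act A Q) e y ∈ lev (act A Q) ⊤ (m + 2) := fun e => del_mem_lev e hyJ
  have hJ2 : ∀ e d, del (act A Q) e (del (act A Q) d y) ∈ lev (act A Q) ⊤ (m + 3) := fun e d => del_mem_lev e (hJ1 d)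
  have T1 : ∀ e d l, Lin.beta (del (act A Q) e y) (del (act A Q) d (del (act A Q) l y)) = 0 := by
    intro e d l
    rcases Nat.eq_zero_or_pos m with h0 | h0
    · subst h0; rw [hy]; exact (hPr.five hn u e a d l a).2
    · exact hPr.deg_zero hn (m + 2) (m + 3) (by omega) _ (hJ1 e) _ (hJ2 d l)
  have T2 : ∀ e d e' d', Lin.beta (del (act A Q) e (del (act A Q) d y))
      (del (act A Q) e' (del (act A Q) d' y)) = 0 := fun e d e' d' =>
    hPr.deg_zero hn (m + 3) (m + 3) (by omega) _ (hJ2 e d) _ (hJ2 e' d')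
  have T3 : ∀ l e d, del (act A Q) l (Lin.beta y (del (act A Q) e (del (act A Q) d y))) = 0 := by
    intro l e d
    rcases Nat.eq_zero_or_pos m with h0 | h0
    · subst h0
      rw [hPr.del_beta, T1, hPr.deg_zero hn 2 4 (by omega) _ (hJ1 l) _ (del_mem_lev l (hJ2 e d))]
      rw [hy, (hPr.five hn u a l e d a).1]; simp
    · exact hPr.deg_fixed hn (m + 1) (m + 3) (by omega) _ hyJ _ (hJ2 e d) l
  -- good elements below `y`
  have hgood : ∀ x ∈ lev (act A Q) ⊤ (m + 2), Good A x := fun x hx =>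
    ⟨fun e d => hPr.deg_zero hn (m + 3) (m + 3) (by omega) _ (del_mem_lev e hx) _ (del_mem_lev d hx),
      fun f hf e => by
        rw [hPr.skew, hPr.perp_fixed_two (fun c => h.del_fixed hf c)
          (lev_le_of_le mem_top_inv (by omega) (del_mem_lev e hx)), neg_zero]⟩
  have hmA : mm ∉ cut Q A := fun hh => hcon (AddSubgroup.mem_sup_right hh)
  have hxP : cen A (del (act A Q) k₀ y) ≤ P := h.good_le (hgood _ (hJ1 k₀)) (a := g₀) (hmm ▸ hmA)
  have hCx : cen A y ≤ cen A (del (act A Q) k₀ y) := by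
    intro c hc
    obtain ⟨hcA, hc⟩ := mem_cen.1 hc
    refine mem_cen.2 ⟨hcA, fun e => ?_⟩
    rw [h.dcomm e k₀, h.dcomm _ k₀, hc, map_zero]
  have hCP : cen A y ≤ P := hCx.trans hxP
  have hCA : cen A y ≤ A := inf_le_left
  -- the subgroup of elements moving `y` into `N F`
  have hNinv : ∀ (c : ↥A), ∀ z ∈ Nw ⊔ cut Q A, act A Q c z ∈ Nw ⊔ cut Q A := by
    intro c z hz
    obtain ⟨n, hn', f, hf, hnf⟩ := AddSubgroup.mem_sup.1 hz
    rw [← hnf, map_add]
    subst hNw
    exact AddSubgroup.add_mem _ (AddSubgroup.mem_sup_left (act_mem_cut h.centP_inv c hn'))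
      (AddSubgroup.mem_sup_right (act_mem_cut Subgroup.le_normalizer c hf))
  let R0 : Subgroup ↥A :=
    { carrier := {e | del (act A Q) e y ∈ Nw ⊔ cut Q A}
      one_mem' := by simp only [Set.mem_setOf_eq, del_one]; exact zero_mem _
      mul_mem' := fun {e d} he hd => by
        simp only [Set.mem_setOf_eq] at he hd ⊢
        rw [del_mul]
        exact add_mem (add_mem (by rw [del_apply]; exact sub_mem (hNinv e _ hd) hd) he) hd
      inv_mem' := fun {e} he => by
        simp only [Set.mem_setOf_eq] at he ⊢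
        have e1 : del (act A Q) e⁻¹ y = - act A Q e⁻¹ (del (act A Q) e y) := by
          simp only [del_apply, map_sub, rho_inv_rho, neg_sub]
        rw [e1]; exact neg_mem (hNinv _ _ he) }
  have hR0 : ∀ e ∈ R0, ∀ d l, del (act A Q) e (del (act A Q) d (del (act A Q) l y)) = 0 := by
    intro e he d l
    obtain ⟨z, hz, f, hf, hzf⟩ := AddSubgroup.mem_sup.1 (show del (act A Q) e y ∈ Nw ⊔ cut Q A from he)
    rw [h.dcomm e d, h.dcomm e l, ← hzf, map_add, map_add, h.quad_center (hNw ▸ hz), h.del_fixed hf, map_zero,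
      add_zero]
  have hR0P : ∀ e ∈ R0, (e : X) ∈ P := fun e he => hxP (mem_cen.2 ⟨e.2, fun d => by
    show del (act A Q) e _ = 0
    exact hR0 e he d k₀⟩)
  -- the two homomorphisms into the quotient by the fixed points
  obtain ⟨n0, hn0⟩ : ∃ n0 : ℕ, ∀ x : Lin ↥Q, n0 • x + n0 • x = x := by
    refine ⟨(Nat.card ↥Q + 1) / 2, fun x => ?_⟩
    obtain ⟨k, hk⟩ := (inferInstance : OddTwo ↥Q).odd
    rw [← add_nsmul, show (Nat.card ↥Q + 1) / 2 + (Nat.card ↥Q + 1) / 2 = Nat.card ↥Q + 1 by omega,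
      add_nsmul, one_nsmul, Nat.card_congr (Lin.equiv (G := ↥Q)), card_nsmul_eq_zero', zero_add]
  let π := QuotientAddGroup.mk' (cut Q A)
  have hπ0 : ∀ f, (∀ c, del (act A Q) c f = 0) → π f = 0 := fun f hf =>
    (QuotientAddGroup.eq_zero_iff f).2 (h.mem_cut_A hf)
  let Pb : ↥A →* Multiplicative (Lin ↥Q ⧸ cut Q A) := MonoidHom.mk'
    (fun e => Multiplicative.ofAdd (π (n0 • Lin.beta y (del (act A Q) e y)))) fun e d => by
      refine Multiplicative.toAdd.injective ?_
      show π _ = π _ + π _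
      rw [del_mul]
      simp only [map_add, nsmul_add]
      rw [hπ0 (n0 • Lin.beta y _) fun c => by rw [map_nsmul, T3, nsmul_zero], zero_add]
  let ψ : ↥R0 →* Multiplicative (Lin ↥Q ⧸ cut Q A) := MonoidHom.mk'
    (fun e => Multiplicative.ofAdd (π (del (act A Q) (e : ↥A) y))) fun e d => by
      refine Multiplicative.toAdd.injective ?_
      show π _ = π _ + π _
      rw [Subgroup.coe_mul, del_mul, map_add, map_add]
      obtain ⟨z, hz, f, hf, hzf⟩ :=
        AddSubgroup.mem_sup.1 (show del (act A Q) (d : ↥A) y ∈ Nw ⊔ cut Q A from d.2)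
      rw [hπ0 (del (act A Q) (e : ↥A) (del (act A Q) (d : ↥A) y)) fun c => by
        rw [← hzf, map_add, h.del_fixed hf, add_zero, h.quad_center (hNw ▸ hz)], zero_add]
  let Nb : Subgroup (Multiplicative (Lin ↥Q ⧸ cut Q A)) := AddSubgroup.toSubgroup (Nw.map π)
  have hψN : ψ.range ≤ Nb := by
    rintro _ ⟨e, rfl⟩
    obtain ⟨z, hz, f, hf, hzf⟩ := AddSubgroup.mem_sup.1 (show del (act A Q) (e : ↥A) y ∈ Nw ⊔ cut Q A from e.2)
    refine ⟨z, hz, ?_⟩
    show π z = π (del (act A Q) (e : ↥A) y)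
    rw [← hzf, map_add, hπ0 f (fun c => h.del_fixed hf c), add_zero]
  have hPN : Pb.range ≤ Nb := by
    rintro _ ⟨e, rfl⟩
    exact ⟨_, AddSubgroup.nsmul_mem _ (hNw ▸ h.beta_mem _ _) _, rfl⟩
  let G0 : Subgroup ↥A := ψ.range.comap Pb
  have hR0G0 : R0 ≤ G0 := by
    intro e he
    refine ⟨1, ?_⟩
    rw [map_one]
    obtain ⟨z, hz, f, hf, hzf⟩ := AddSubgroup.mem_sup.1 (show del (act A Q) e y ∈ Nw ⊔ cut Q A from he)
    refine Multiplicative.toAdd.injective ?_
    show (0 : Lin ↥Q ⧸ cut Q A) = π (n0 • Lin.beta y (del (act A Q) e y))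
    rw [hπ0 _ fun c => ?_]
    rw [map_nsmul, ← hzf, map_add (Lin.beta y), rad_centQ y (h.centP_le_centQ (hNw ▸ hz)), zero_add,
      hPr.perp_fixed_one (fun l => h.del_fixed hf l) (lev_le_of_le mem_top_inv (by omega) hyJ), nsmul_zero]
  set Cy : Subgroup ↥A := (cen A y).subgroupOf A with hCy
  have hCyR0 : Cy ≤ R0 := fun e he => AddSubgroup.mem_sup_right ((h.mem_cen_iff e).1 he)
  have hker : ψ.ker = Cy.subgroupOf R0 := by
    ext e
    rw [MonoidHom.mem_ker, Subgroup.mem_subgroupOf, hCy, Subgroup.mem_subgroupOf, h.mem_cen_iff,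
      ← QuotientAddGroup.eq_zero_iff]
    exact ⟨fun he => congrArg Multiplicative.toAdd he, fun he => Multiplicative.toAdd.injective he⟩
  have hcount : Cy.index ≤ R0.relIndex G0 * Nat.card ↥Nb := by
    rw [← Subgroup.relIndex_mul_index hCyR0, ← Subgroup.relIndex_mul_index hR0G0]
    have e1 : Cy.relIndex R0 = Nat.card ↥ψ.range := by
      rw [Subgroup.relIndex, ← hker, Subgroup.index_ker]
    have e2 : G0.index ≤ ψ.range.relIndex Nb := by
      rw [Subgroup.index_comap]
      exact Subgroup.relIndex_le_of_le_right hPN (Subgroup.index_ne_zero_of_finite (H := ψ.range.subgroupOf Nb))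
    rw [← card_mul_relIndex hψN, e1]
    calc Nat.card ↥ψ.range * (R0.relIndex G0 * G0.index)
        ≤ Nat.card ↥ψ.range * (R0.relIndex G0 * ψ.range.relIndex Nb) :=
          Nat.mul_le_mul_left _ (Nat.mul_le_mul_left _ e2)
      _ = _ := by ring
  -- the competitor
  set T : Set X := (cen A y : Set X) ∪ elt '' (Nw : Set (Lin ↥Q)) ∪
    {x | ∃ e d, x = elt (del (act A Q) e (del (act A Q) d y))} ∪
    {x | ∃ g e : ↥A, del (act A Q) e y - n0 • Lin.beta y (del (act A Q) g y) ∈ cut Q A ∧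
      x = elt (del (act A Q) g y) * (e : X)} with hT
  have hcondR0 : ∀ g e : ↥A, del (act A Q) e y - n0 • Lin.beta y (del (act A Q) g y) ∈ cut Q A → e ∈ R0 := by
    intro g e he
    show del (act A Q) e y ∈ Nw ⊔ cut Q A
    exact AddSubgroup.mem_sup.2 ⟨_, AddSubgroup.nsmul_mem _ (hNw ▸ h.beta_mem _ _) n0, _, he, add_sub_cancel _ _⟩
  have hTP : T ⊆ P := by
    rintro x (((hx | ⟨z, -, rfl⟩) | ⟨e, d, rfl⟩) | ⟨g, e, he, rfl⟩)
    · exact hCP hx
    · exact h.Q_le (elt_mem z)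
    · exact h.Q_le (elt_mem _)
    · exact P.mul_mem (h.Q_le (elt_mem _)) (hR0P e (hcondR0 g e he))
  have hNc : ∀ z ∈ Nw, ∀ x ∈ P, Commute x (elt z) := fun z hz x hx => by
    rw [hNw] at hz; exact Subgroup.mem_centralizer_iff.1 hz x hx
  have hkill : ∀ c ∈ cen A y, ∀ e d, Commute c (elt (del (act A Q) e (del (act A Q) d y))) := by
    intro c hc e d
    obtain ⟨hcA, hc⟩ := mem_cen.1 hc
    refine (del_eq_zero_iff (a := (⟨c, hcA⟩ : ↥A))).1 ?_
    rw [h.dcomm _ e, hc, map_zero]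
  have hCX : ∀ c ∈ cen A y, ∀ g e : ↥A, Commute c (elt (del (act A Q) g y) * (e : X)) := fun c hc g e =>
    Commute.mul_right ((mem_cen.1 hc).elim fun hcA hc' => (del_eq_zero_iff (a := (⟨c, hcA⟩ : ↥A))).1 (hc' g))
      (h.maxAb.comm c (hCA hc) e e.2)
  have hI2X : ∀ e d g e' : ↥A, e' ∈ R0 →
      Commute (elt (del (act A Q) e (del (act A Q) d y))) (elt (del (act A Q) g y) * (e' : X)) :=
    fun e d g e' he' => Commute.mul_right (beta_eq_zero_iff.1 (T1 g e d)).symm
      ((del_eq_zero_iff (a := e')).1 (hR0 e' he' e d)).symm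
  have hXX : ∀ g e g' e' : ↥A, del (act A Q) e y - n0 • Lin.beta y (del (act A Q) g y) ∈ cut Q A →
      del (act A Q) e' y - n0 • Lin.beta y (del (act A Q) g' y) ∈ cut Q A →
      Commute (elt (del (act A Q) g y) * (e : X)) (elt (del (act A Q) g' y) * (e' : X)) := by
    intro g e g' e' he he'
    have η : ∀ g e g' : ↥A, del (act A Q) e y - n0 • Lin.beta y (del (act A Q) g y) ∈ cut Q A →
        ∃ z ∈ Nw, z = n0 • del (act A Q) g' (Lin.beta y (del (act A Q) g y)) ∧
          (e : X) * elt (del (act A Q) g' y) = elt z * elt (del (act A Q) g' y) * (e : X) := by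
      intro g e g' he
      have h1 := h.del_fixed he g'
      rw [map_sub, map_nsmul, sub_eq_zero] at h1
      have hz : n0 • del (act A Q) g' (Lin.beta y (del (act A Q) g y)) ∈ Nw := by
        rw [hNw]; exact AddSubgroup.nsmul_mem _ (del_mem_cut h.centP_inv g' (h.beta_mem _ _)) _
      refine ⟨_, hz, rfl, ?_⟩
      rw [← mul_inv_eq_iff_eq_mul, ← elt_act, ← elt_add_of_comm (?_), rho_eq (act A Q) e, h.dcomm e g', h1]
      exact rad_centQ _ (h.centP_le_centQ (hNw ▸ hz))
    obtain ⟨z, hz, hzd, hze⟩ := η g e g' he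
    obtain ⟨z', hz', hzd', hze'⟩ := η g' e' g he'
    set w := del (act A Q) g y with hw
    set w' := del (act A Q) g' y with hw'
    have hsum : Lin.beta w w' + z = z' := by
      have i1 := hPr.del_beta g y w'
      have i2 := hPr.del_beta g' y w
      rw [← hw, hw', T1, add_zero, ← hw'] at i1
      rw [← hw', hw, T1, add_zero, ← hw, hPr.skew w' w, h.dcomm g' g] at i2
      rw [hzd, hzd', i1, i2, ← hw']
      simp only [nsmul_add, smul_neg, ← add_assoc, add_left_inj]
      rw [← sub_eq_add_neg, sub_eq_iff_eq_add, hn0]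
    have hcomm : ⁅elt w, elt w'⁆ * elt z = elt z' := by
      rw [← hsum, elt_add_of_comm (?_), elt_beta]
      rw [hPr.skew, rad_centQ _ (h.centP_le_centQ (hNw ▸ hz)), neg_zero]
    show elt w * (e : X) * (elt w' * (e' : X)) = elt w' * (e' : X) * (elt w * (e : X))
    have c1 := (hNc z hz (elt w) (h.Q_le (elt_mem _))).eq
    have c2 := (hNc z hz (elt w') (h.Q_le (elt_mem _))).eq
    have c3 := (hNc z' hz' (elt w') (h.Q_le (elt_mem _))).eq
    have c4 := (hNc z' hz' (elt w) (h.Q_le (elt_mem _))).eq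
    calc elt w * (e : X) * (elt w' * (e' : X)) = elt w * ((e : X) * elt w') * (e' : X) := by group
      _ = elt w * (elt z * elt w') * ((e : X) * (e' : X)) := by rw [hze]; group
      _ = elt w * elt w' * elt z * ((e' : X) * (e : X)) := by
        rw [← c2, h.maxAb.comm e e.2 e' e'.2]; group
      _ = ⁅elt w, elt w'⁆ * (elt w' * elt w * elt z) * ((e' : X) * (e : X)) := by
        simp only [commutatorElement_def]; group
      _ = ⁅elt w, elt w'⁆ * elt z * (elt w' * elt w) * ((e' : X) * (e : X)) := by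
        rw [mul_assoc (elt w') (elt w) (elt z), c1, ← mul_assoc (elt w') (elt z), c2]; group
      _ = elt w' * (elt z' * elt w) * ((e' : X) * (e : X)) := by
        rw [hcomm, ← mul_assoc (elt z'), ← c3]; group
      _ = elt w' * ((e' : X) * elt w) * (e : X) := by rw [hze']; group
      _ = _ := by group
  obtain ⟨hBS, hBc, hBA⟩ := h.abelian_closure_card (T := T) (hTP.trans h.P_le) (by
    intro s hs t ht
    rcases hs with ((hs' | ⟨z, hz, rfl⟩) | ⟨e, d, rfl⟩) | ⟨g, e, he, rfl⟩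
    · rcases ht with ((ht' | ⟨z, hz, rfl⟩) | ⟨e, d, rfl⟩) | ⟨g, e, he, rfl⟩
      · exact h.maxAb.comm s (hCA hs') t (hCA ht')
      · exact hNc z hz s (hCP hs')
      · exact hkill s hs' e d
      · exact hCX s hs' g e
    · exact (hNc z hz t (hTP ht)).symm
    · rcases ht with ((ht' | ⟨z, hz, rfl⟩) | ⟨e', d', rfl⟩) | ⟨g, e', he', rfl⟩
      · exact (hkill t ht' e d).symm
      · exact hNc z hz _ (h.Q_le (elt_mem _))
      · exact beta_eq_zero_iff.1 (T2 e d e' d')
      · exact hI2X e d g e' (hcondR0 g e' he')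
    · rcases ht with ((ht' | ⟨z, hz, rfl⟩) | ⟨e', d', rfl⟩) | ⟨g', e', he', rfl⟩
      · exact (hCX t ht' g e).symm
      · exact hNc z hz _ (hTP (Or.inr ⟨g, e, he, rfl⟩))
      · exact (hI2X e' d' g e (hcondR0 g e he)).symm
      · exact hXX g e g' e' he he')
  set B := Subgroup.closure T with hB
  have hCB : cen A y ≤ B := fun c hc => Subgroup.subset_closure (Or.inl (Or.inl (Or.inl hc)))
  have hsel : ∀ q : ↥G0, ∃ e : ↥A,
      del (act A Q) e y - n0 • Lin.beta y (del (act A Q) (q : ↥A) y) ∈ cut Q A := by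
    intro q
    obtain ⟨e, he⟩ := q.2
    exact ⟨e, (QuotientAddGroup.eq_iff_sub_mem).1 (congrArg Multiplicative.toAdd he)⟩
  choose es hes using hsel
  have hNb : ∀ z : ↥Nb, ∃ w ∈ Nw, π w = Multiplicative.toAdd (z : Multiplicative (Lin ↥Q ⧸ cut Q A)) :=
    fun z => z.2
  choose zs hzsN hzs using hNb
  let w : ↥G0 → Lin ↥Q := fun q => del (act A Q) (q : ↥A) y
  let Φ : (↥G0 ⧸ R0.subgroupOf G0) × ↥Nb → ↥B ⧸ (cen A y).subgroupOf B := fun t =>
    QuotientGroup.mk ⟨elt (w t.1.out) * (es t.1.out : X) * elt (zs t.2),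
      B.mul_mem (Subgroup.subset_closure (Or.inr ⟨_, _, hes _, rfl⟩))
        (Subgroup.subset_closure (Or.inl (Or.inl (Or.inr ⟨_, hzsN _, rfl⟩))))⟩
  have hesP : ∀ q, (es q : X) ∈ P := fun q => hR0P _ (hcondR0 _ _ (hes q))
  -- passing to the sum
  have hdiff : ∀ x x' : Lin ↥Q, ∀ H : Subgroup X, ⁅Q, Q⁆ ≤ H → (elt x)⁻¹ * elt x' ∈ A →
      x' - x ∈ cut Q H ⊔ cut Q A := by
    intro x x' H hH hA
    have e1 : (⟨x.toG⁻¹ * x'.toG⟩ : Lin ↥Q) = -x + x' + ⟨Lin.hf ⁅(-x).toG, x'.toG⁆⟩ := Lin.mul_eq _ _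
    have h1 : (⟨x.toG⁻¹ * x'.toG⟩ : Lin ↥Q) ∈ cut Q A := hA
    rw [e1] at h1
    have h2 := elt_hf (-x) x' (hH (Subgroup.commutator_mem_commutator (elt_mem _) (elt_mem _)))
    rw [show x' - x = -(⟨Lin.hf ⁅(-x).toG, x'.toG⁆⟩ : Lin ↥Q) + (-x + x' + ⟨Lin.hf ⁅(-x).toG, x'.toG⁆⟩) by abel]
    exact AddSubgroup.add_mem _ (AddSubgroup.mem_sup_left (neg_mem h2)) (AddSubgroup.mem_sup_right h1)
  have hstrip : ∀ (q : ↥G0) (z : ↥Nb) (x : X), x ∈ P →
      (elt (w q) * (es q : X) * elt (zs z))⁻¹ * x ∈ A → (elt (zs z))⁻¹ * ((elt (w q))⁻¹ * x) ∈ A := by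
    intro q z x _ hA
    have c := (hNc (zs z) (hzsN z) _ (hesP q)).eq
    have h1 := A.mul_mem (es q).2 hA
    rw [mul_assoc (elt (w q)), c] at h1
    simpa [mul_assoc] using h1
  have hΦ : Function.Injective Φ := by
    rintro ⟨q, z⟩ ⟨q', z'⟩ heq
    have hC' := Subgroup.mem_subgroupOf.1 (QuotientGroup.eq.1 heq)
    simp only [Subgroup.coe_mul, Subgroup.coe_inv] at hC'
    have hA1 := hstrip q.out z _ (P.mul_mem (P.mul_mem (h.Q_le (elt_mem _)) (hesP q'.out))
      (h.Q_le (elt_mem _))) (hCA hC')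
    have hA2 : (elt (zs z))⁻¹ * ((elt (w q.out))⁻¹ * elt (w q'.out)) * elt (zs z') ∈ A := by
      have c := (hNc (zs z') (hzsN z') _ (hesP q'.out)).eq
      have h2 := A.mul_mem hA1 (A.inv_mem (es q'.out).2)
      rw [mul_assoc (elt (w q'.out)), c] at h2
      simpa [mul_assoc] using h2
    have hq : q = q' := by
      rw [← QuotientGroup.out_eq' q, ← QuotientGroup.out_eq' q']
      refine QuotientGroup.eq.2 (Subgroup.mem_subgroupOf.2 ?_)
      show del (act A Q) ((q.out⁻¹ * q'.out : ↥G0) : ↥A) y ∈ Nw ⊔ cut Q A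
      have e : del (act A Q) ((q.out⁻¹ * q'.out : ↥G0) : ↥A) y =
          act A Q ((q.out : ↥A))⁻¹ (w q'.out - w q.out) := by
        simp only [w, del_apply, map_sub, rho_inv_rho, Subgroup.coe_mul, Subgroup.coe_inv, map_mul]
        show act A Q _ (act A Q _ y) - y = _
        abel
      rw [e]
      refine hNinv _ _ ?_
      have hA3 : (elt (w q.out + zs z))⁻¹ * elt (w q'.out + zs z') ∈ A := by
        rw [elt_add_of_comm, elt_add_of_comm, mul_inv_rev, ← mul_assoc]
        · simpa [mul_assoc] using hA2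
        all_goals rw [hPr.skew, rad_centQ _ (h.centP_le_centQ (hNw ▸ hzsN _)), neg_zero]
      have h3 : w q'.out + zs z' - (w q.out + zs z) ∈ Nw ⊔ cut Q A := hNw ▸ hdiff _ _ _ h.comm_QQ hA3
      have hz2 : zs z' - zs z ∈ Nw ⊔ cut Q A := AddSubgroup.mem_sup_left (sub_mem (hzsN _) (hzsN _))
      have := sub_mem h3 hz2
      rwa [show w q'.out + zs z' - (w q.out + zs z) - (zs z' - zs z) = w q'.out - w q.out by abel] at this
    subst hq
    have hzz : z = z' := by
      refine Subtype.ext (Multiplicative.toAdd.injective ?_)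
      rw [← hzs z, ← hzs z', eq_comm]
      refine (QuotientAddGroup.eq_iff_sub_mem).2 ?_
      rw [mem_cut, sub_eq_neg_add, elt_add_of_comm (rad_centQ _ (h.centP_le_centQ (hNw ▸ neg_mem (hzsN z))))]
      show (elt (zs z))⁻¹ * elt (zs z') ∈ A
      simpa using hA2
    rw [hzz]
  have hle : Nat.card (↥B ⧸ (cen A y).subgroupOf B) ≤ Nat.card ((↥G0 ⧸ R0.subgroupOf G0) × ↥Nb) := by
    rw [Nat.card_prod]
    exact (h.card_quotient_le hCA hCB hBA).trans hcount
  have hmB : elt mm ∈ B := Subgroup.subset_closure (Or.inl (Or.inr ⟨g₀, k₀, by rw [hmm]⟩))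
  obtain ⟨⟨q, z⟩, hqz⟩ := (hΦ.bijective_of_nat_card_le hle).2 (QuotientGroup.mk ⟨elt mm, hmB⟩)
  have hC' := Subgroup.mem_subgroupOf.1 (QuotientGroup.eq.1 hqz)
  simp only [Subgroup.coe_mul, Subgroup.coe_inv] at hC'
  have hA1 := hstrip q.out z _ (h.Q_le (elt_mem mm)) (hCA hC')
  have hmq : mm - w q.out ∈ Nw ⊔ cut Q A := by
    have hA3 : (elt (w q.out + zs z))⁻¹ * elt mm ∈ A := by
      rw [elt_add_of_comm, mul_inv_rev, mul_assoc]
      · exact hA1
      · rw [hPr.skew, rad_centQ _ (h.centP_le_centQ (hNw ▸ hzsN _)), neg_zero]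
    have h3 := add_mem (hNw ▸ hdiff _ _ _ h.comm_QQ hA3 : mm - (w q.out + zs z) ∈ Nw ⊔ cut Q A)
      (AddSubgroup.mem_sup_left (hzsN z) : zs z ∈ Nw ⊔ cut Q A)
    rwa [show mm - (w q.out + zs z) + zs z = mm - w q.out by abel] at h3
  obtain ⟨b, hb⟩ : ∃ b : ↥A, mm - del (act A Q) b y ∈ Nw ⊔ cut Q A := ⟨_, hmq⟩
  have horb : orb A y ≤ lev (act A Q) ⊤ (m + 1) :=
    orb_le (fun c x hx => rho_mem_lev mem_top_inv c hx) hyJ
  have hbP : (b : X) ∈ P := by
    refine h.mem_P_of_shift (fun x hx => hgood x (lev_add (m + 1) 1 (lev_mono horb 1 hx))) (fun e d => ?_)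
      ⟨g₀, k₀, hmm ▸ hmA⟩
    obtain ⟨z', hz', f, hf, hzf⟩ := AddSubgroup.mem_sup.1 hb
    have h1 : del (act A Q) e (del (act A Q) d (mm - del (act A Q) b y)) = 0 := by
      rw [← hzf, map_add, map_add, h.quad_center (hNw ▸ hz'), h.del_fixed hf, map_zero, add_zero]
    rw [map_sub, map_sub, sub_eq_zero] at h1
    rw [h.dcomm b e, h.dcomm b d, ← h1, hmm]
    exact del_mem_lev e (del_mem_lev d (del_mem_lev g₀ (del_mem_lev k₀ (mem_orb y))))
  apply hcon
  have hsub : Nw ⊔ cut Q A ≤ cut Q (Subgroup.centralizer (Q : Set X)) ⊔ cut Q A :=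
    sup_le_sup_right (hNw ▸ h.centP_le_centQ) _
  have := add_mem (hsub hb) (AddSubgroup.mem_sup_left (h.del_mem_centQ hbP y) :
    del (act A Q) b y ∈ cut Q (Subgroup.centralizer (Q : Set X)) ⊔ cut Q A)
  rwa [sub_add_cancel] at this

/-- Degree four on `Q` modulo its centre. -/
theorem lev_four [Finite X] [Fact p.Prime] :
    lev (act A Q) ⊤ 4 ≤ cut Q (Subgroup.centralizer (Q : Set X)) := by
  have step : ∀ m, lev (act A Q) ⊤ (m + 5) ≤ cut Q (Subgroup.centralizer (Q : Set X)) →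
      lev (act A Q) ⊤ (m + 4) ≤ cut Q (Subgroup.centralizer (Q : Set X)) := by
    intro m hm
    refine lev_succ_le_iff.2 fun l x hx => ?_
    have hT : lev (act A Q) ⊤ (m + 3) ≤ cut Q (Subgroup.centralizer (Q : Set X)) ⊔ cut Q A := by
      refine lev_succ_le_iff.2 fun g x hx => ?_
      induction hx using AddSubgroup.closure_induction with
      | mem _ hx =>
        obtain ⟨k, x, hx, rfl⟩ := hx
        induction hx using AddSubgroup.closure_induction with
        | mem _ hx =>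
          obtain ⟨a, u, hu, rfl⟩ := hx
          exact h.del_del_mem hm hu a g k
        | zero => simp
        | add _ _ _ _ h1 h2 => simp only [map_add]; exact add_mem h1 h2
        | neg _ _ h1 => simp only [map_neg]; exact neg_mem h1
      | zero => simp
      | add _ _ _ _ h1 h2 => simp only [map_add]; exact add_mem h1 h2
      | neg _ _ h1 => simp only [map_neg]; exact neg_mem h1
    obtain ⟨z, hz, f, hf, rfl⟩ := AddSubgroup.mem_sup.1 (hT hx)
    rw [map_add, h.del_fixed hf, add_zero]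
    exact del_mem_cut centQ_inv l hz
  obtain ⟨n, hn⟩ := h.exists_lev_eq_bot
  have H : ∀ k, lev (act A Q) ⊤ (k + 4) ≤ cut Q (Subgroup.centralizer (Q : Set X)) →
      lev (act A Q) ⊤ 4 ≤ cut Q (Subgroup.centralizer (Q : Set X)) := by
    intro k
    induction k with
    | zero => exact id
    | succ k ih => exact fun hk => ih (step k hk)
  exact H n ((lev_le_of_le mem_top_inv (Nat.le_add_right n 4)).trans (hn.le.trans bot_le))

/-- From levels to iterated commutators. -/
theorem iter_le_of_lev {U : AddSubgroup (Lin ↥Q)} {K0 : Subgroup X} (hU : ∀ g : ↥A, ∀ x ∈ U, act A Q g x ∈ U)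
    (hK : A ≤ Subgroup.normalizer (K0 : Set X))
    (hc : ∀ x ∈ U ⊔ cut Q K0, ∀ y ∈ U ⊔ cut Q K0, ⁅elt x, elt y⁆ ∈ K0) {U0 : Subgroup X} (hU0Q : U0 ≤ Q)
    (hU0 : ∀ x (hx : x ∈ U0), (⟨⟨x, hU0Q hx⟩⟩ : Lin ↥Q) ∈ U) {k : ℕ} (hk : lev (act A Q) U k ≤ cut Q K0) :
    Cfsg.iterCommutator U0 A k ≤ K0 := by
  have main : ∀ j, ∀ x ∈ Cfsg.iterCommutator U0 A j,
      ∃ w ∈ lev (act A Q) U j ⊔ cut Q K0, elt w = x := by
    intro j
    induction j with
    | zero => exact fun x hx => ⟨_, AddSubgroup.mem_sup_left (hU0 x hx), rfl⟩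
    | succ j ih =>
      have hsub : lev (act A Q) U j ⊔ cut Q K0 ≤ U ⊔ cut Q K0 :=
        sup_le_sup_right (lev_le_of_le hU (Nat.zero_le j)) _
      have hsub1 : lev (act A Q) U (j + 1) ⊔ cut Q K0 ≤ U ⊔ cut Q K0 :=
        sup_le_sup_right (lev_le_of_le hU (Nat.zero_le _)) _
      let L : Subgroup X :=
        { carrier := {x | ∃ w ∈ lev (act A Q) U (j + 1) ⊔ cut Q K0, elt w = x}
          one_mem' := ⟨0, zero_mem _, rfl⟩
          mul_mem' := by
            rintro _ _ ⟨x, hx, rfl⟩ ⟨y, hy, rfl⟩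
            refine ⟨⟨x.toG * y.toG⟩, ?_, rfl⟩
            rw [Lin.mul_eq]
            exact add_mem (add_mem hx hy)
              (AddSubgroup.mem_sup_right (elt_hf x y (hc x (hsub1 hx) y (hsub1 hy))))
          inv_mem' := by
            rintro _ ⟨x, hx, rfl⟩
            exact ⟨-x, neg_mem hx, rfl⟩ }
      have key : ⁅Cfsg.iterCommutator U0 A j, A⁆ ≤ L := by
        rw [Subgroup.commutator_le]
        intro x hx a ha
        obtain ⟨w, hw, rfl⟩ := ih x hx
        refine ⟨⟨w.toG * (act A Q ⟨a, ha⟩ (-w)).toG⟩, ?_, ?_⟩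
        · rw [Lin.mul_eq]
          have hinv : ∀ g, ∀ z ∈ U ⊔ cut Q K0, act A Q g z ∈ U ⊔ cut Q K0 := by
            intro g z hz
            obtain ⟨u, hu, k, hk, rfl⟩ := AddSubgroup.mem_sup.1 hz
            rw [map_add]
            exact AddSubgroup.add_mem _ (AddSubgroup.mem_sup_left (hU g u hu))
              (AddSubgroup.mem_sup_right (act_mem_cut hK g hk))
          refine add_mem ?_ (AddSubgroup.mem_sup_right
            (elt_hf w _ (hc w (hsub hw) _ (hinv _ _ (neg_mem (hsub hw))))))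
          show w + act A Q ⟨a, ha⟩ (-w) ∈ _
          rw [map_neg, ← sub_eq_add_neg, ← neg_sub, ← del_apply]
          refine neg_mem ?_
          obtain ⟨u, hu, k, hk, rfl⟩ := AddSubgroup.mem_sup.1 hw
          rw [map_add]
          exact AddSubgroup.add_mem _ (AddSubgroup.mem_sup_left (del_mem_lev _ hu))
            (AddSubgroup.mem_sup_right (del_mem_cut hK _ hk))
        · show elt w * elt (act A Q ⟨a, ha⟩ (-w)) = _
          rw [elt_act, show elt (-w) = (elt w)⁻¹ from rfl, commutatorElement_def]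
          group
      exact fun x hx => key hx
  intro x hx
  obtain ⟨w, hw, rfl⟩ := main k x hx
  exact (sup_le hk le_rfl : lev (act A Q) U k ⊔ cut Q K0 ≤ cut Q K0) hw

theorem iter_four [Finite X] [Fact p.Prime] :
    Cfsg.iterCommutator Q A 4 ≤ Subgroup.centralizer (Q : Set X) := by
  refine h.iter_le_of_lev (U := ⊤) mem_top_inv centQ_inv (fun x _ y _ => ?_) le_rfl
    (fun _ _ => AddSubgroup.mem_top _) h.lev_four
  exact Subgroup.centralizer_le (SetLike.coe_subset_coe.2 h.Q_le)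
    (h.comm_QQ (Subgroup.commutator_mem_commutator (elt_mem x) (elt_mem y)))

theorem iter_three [Finite X] [Fact p.Prime] {U V : Subgroup X} (hUQ : U ≤ Q)
    (hUZ : U ≤ Subgroup.centralizer (Q : Set X)) (hUn : U.Normal) (hVn : V.Normal) (hVU : V ≤ U)
    (hUP : ⁅U, P⁆ ≤ V) : Cfsg.iterCommutator U A 3 ≤ V := by
  haveI := hUn
  haveI := hVn
  have hUi : A ≤ Subgroup.normalizer (U : Set X) := by rw [Subgroup.normalizer_eq_top]; exact le_top
  have hVi : A ≤ Subgroup.normalizer (V : Set X) := by rw [Subgroup.normalizer_eq_top]; exact le_top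
  have hsup : cut Q U ⊔ cut Q V ≤ cut Q U := sup_le le_rfl fun _ hw => hVU hw
  refine h.iter_le_of_lev (U := cut Q U) (fun g x hx => act_mem_cut hUi g hx) hVi (fun x hx y _ => ?_) hUQ
    (fun x hx => hx) ?_
  · have h1 := Subgroup.mem_centralizer_iff.1 (hUZ (hsup hx)) (elt y) (elt_mem y)
    rw [commutatorElement_eq_one_iff_mul_comm.2 h1.symm]
    exact V.one_mem
  · refine lev_succ_le_iff.2 fun l x hx => ?_
    induction hx using AddSubgroup.closure_induction with
    | mem _ hx =>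
      obtain ⟨g, x, hx, rfl⟩ := hx
      induction hx using AddSubgroup.closure_induction with
      | mem _ hx =>
        obtain ⟨k, y, hy, rfl⟩ := hx
        refine h.cubic (hUZ hy) hVi (fun b hb => hUP ?_) l g k
        rw [Subgroup.commutator_comm]
        exact Subgroup.commutator_mem_commutator hb hy
      | zero => simp
      | add _ _ _ _ h1 h2 => simp only [map_add]; exact add_mem h1 h2
      | neg _ _ h1 => simp only [map_neg]; exact neg_mem h1
    | zero => simp
    | add _ _ _ _ h1 h2 => simp only [map_add]; exact add_mem h1 h2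
    | neg _ _ h1 => simp only [map_neg]; exact neg_mem h1

end Repl

end Cfsg.Agent.Lib.KInf
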